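import Mathlib

/-!
# S4844, PS-1b: `arith_two`, `arith_seven` (helper117)
-/

set_option autoImplicit false

namespace Cfsg.Agent.H117.PSq

universe u v

/-! ### four points -/

/-- the arithmetic for four points and three directions, positive excess -/
theorem arith_four_int {x₀ x₁ x₂ x₃ c₁ c₂ c₃ : ℤ} (h0 : 0 < x₀) (h1 : 0 < x₁) (h2 : 0 < x₂) (h3 : 0 < x₃)
    (e01 : x₀ * x₁ + x₀ + x₁ = c₁ * (x₀ + x₁)) (e23 : x₂ * x₃ + x₂ + x₃ = c₁ * (x₂ + x₃))
    (e02 : x₀ * x₂ + x₀ + x₂ = c₂ * (x₀ + x₂)) (e13 : x₁ * x₃ + x₁ + x₃ = c₂ * (x₁ + x₃))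
    (e03 : x₀ * x₃ + x₀ + x₃ = c₃ * (x₀ + x₃)) (e12 : x₁ * x₂ + x₁ + x₂ = c₃ * (x₁ + x₂)) :
    x₁ = x₀ ∧ x₂ = x₀ ∧ x₃ = x₀ ∧ x₀ + 2 = 2 * c₁ ∧ c₂ = c₁ ∧ c₃ = c₁ := by
  have P1 : x₀ * x₁ * (x₂ + x₃) = x₂ * x₃ * (x₀ + x₁) := by
    linear_combination (x₂ + x₃) * e01 - (x₀ + x₁) * e23
  have P2 : x₀ * x₂ * (x₁ + x₃) = x₁ * x₃ * (x₀ + x₂) := by
    linear_combination (x₁ + x₃) * e02 - (x₀ + x₂) * e13
  have P3 : x₀ * x₃ * (x₁ + x₂) = x₁ * x₂ * (x₀ + x₃) := by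
    linear_combination (x₁ + x₂) * e03 - (x₀ + x₃) * e12
  have q1 : (x₁ * x₂) * x₃ = (x₁ * x₂) * x₀ := by linarith
  have q2 : (x₁ * x₃) * x₂ = (x₁ * x₃) * x₀ := by linarith
  have q3 : (x₂ * x₃) * x₁ = (x₂ * x₃) * x₀ := by linarith
  have r3 := mul_left_cancel₀ (mul_pos h1 h2).ne' q1
  have r2 := mul_left_cancel₀ (mul_pos h1 h3).ne' q2
  have r1 := mul_left_cancel₀ (mul_pos h2 h3).ne' q3
  refine ⟨r1, r2, r3, ?_⟩
  rw [r1] at e01
  rw [r2] at e02
  rw [r3] at e03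
  have k1 : x₀ + 2 = 2 * c₁ := mul_left_cancel₀ h0.ne' (by linear_combination e01)
  have k2 : x₀ + 2 = 2 * c₂ := mul_left_cancel₀ h0.ne' (by linear_combination e02)
  have k3 : x₀ + 2 = 2 * c₃ := mul_left_cancel₀ h0.ne' (by linear_combination e03)
  exact ⟨k1, by linarith, by linarith⟩

/-- the arithmetic for four points and three directions, positive excess -/
theorem arith_four {x₀ x₁ x₂ x₃ c₁ c₂ c₃ n : ℕ} (h0 : 0 < x₀) (h1 : 0 < x₁) (h2 : 0 < x₂) (h3 : 0 < x₃)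
    (e01 : x₀ * x₁ + x₀ + x₁ = c₁ * (x₀ + x₁)) (e23 : x₂ * x₃ + x₂ + x₃ = c₁ * (x₂ + x₃))
    (e02 : x₀ * x₂ + x₀ + x₂ = c₂ * (x₀ + x₂)) (e13 : x₁ * x₃ + x₁ + x₃ = c₂ * (x₁ + x₃))
    (e03 : x₀ * x₃ + x₀ + x₃ = c₃ * (x₀ + x₃)) (e12 : x₁ * x₂ + x₁ + x₂ = c₃ * (x₁ + x₂))
    (eT : (x₀ + 1) * (x₁ + 1) * (x₂ + 1) * (x₃ + 1) = 1 + n * (x₀ + x₁ + x₂ + x₃))
    (hn : n ≤ c₁ * c₂ * c₃) : False := by
  obtain ⟨r1, r2, r3, k1, k2, k3⟩ := arith_four_int (x₀ := x₀) (x₁ := x₁) (x₂ := x₂) (x₃ := x₃) (c₁ := c₁)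
    (c₂ := c₂) (c₃ := c₃) (by exact_mod_cast h0) (by exact_mod_cast h1) (by exact_mod_cast h2) (by exact_mod_cast h3)
    (by exact_mod_cast e01) (by exact_mod_cast e23) (by exact_mod_cast e02) (by exact_mod_cast e13)
    (by exact_mod_cast e03) (by exact_mod_cast e12)
  have r1' : x₁ = x₀ := by exact_mod_cast r1
  have r2' : x₂ = x₀ := by exact_mod_cast r2
  have r3' : x₃ = x₀ := by exact_mod_cast r3
  have k2' : c₂ = c₁ := by exact_mod_cast k2
  have k3' : c₃ = c₁ := by exact_mod_cast k3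
  have k1' : x₀ + 2 = 2 * c₁ := by exact_mod_cast k1
  rw [r1', r2', r3'] at eT
  rw [k2', k3'] at hn
  obtain ⟨y, rfl⟩ : ∃ y, c₁ = y + 2 := ⟨c₁ - 2, by omega⟩
  have hx : x₀ = 2 * y + 2 := by omega
  rw [hx] at eT
  have h5 : (2 * y + 2 + 1) * (2 * y + 2 + 1) * (2 * y + 2 + 1) * (2 * y + 2 + 1) ≤
      1 + ((y + 2) * (y + 2) * (y + 2)) * (2 * y + 2 + (2 * y + 2) + (2 * y + 2) + (2 * y + 2)) := by
    rw [eT]
    exact Nat.add_le_add_left (Nat.mul_le_mul_right _ hn) _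
  have h6 : (2 * y + 2 + 1) * (2 * y + 2 + 1) * (2 * y + 2 + 1) * (2 * y + 2 + 1) =
      1 + ((y + 2) * (y + 2) * (y + 2)) * (2 * y + 2 + (2 * y + 2) + (2 * y + 2) + (2 * y + 2)) +
        (8 * y ^ 4 + 40 * y ^ 3 + 72 * y ^ 2 + 56 * y) + 16 := by ring
  omega

/-- the arithmetic for four points and three directions -/
theorem arith_four' {w₀ w₁ w₂ w₃ c₁ c₂ c₃ n : ℕ} (h0 : w₀ = 1 ∨ 3 ≤ w₀) (h1 : w₁ = 1 ∨ 3 ≤ w₁)
    (h2 : w₂ = 1 ∨ 3 ≤ w₂) (h3 : w₃ = 1 ∨ 3 ≤ w₃)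
    (e01 : w₀ * w₁ = 1 + c₁ * ((w₀ - 1) + (w₁ - 1))) (e23 : w₂ * w₃ = 1 + c₁ * ((w₂ - 1) + (w₃ - 1)))
    (e02 : w₀ * w₂ = 1 + c₂ * ((w₀ - 1) + (w₂ - 1))) (e13 : w₁ * w₃ = 1 + c₂ * ((w₁ - 1) + (w₃ - 1)))
    (e03 : w₀ * w₃ = 1 + c₃ * ((w₀ - 1) + (w₃ - 1))) (e12 : w₁ * w₂ = 1 + c₃ * ((w₁ - 1) + (w₂ - 1)))
    (eT : w₀ * w₁ * w₂ * w₃ = 1 + n * ((w₀ - 1) + (w₁ - 1) + (w₂ - 1) + (w₃ - 1)))
    (hn : n ≤ c₁ * c₂ * c₃)
    (n01 : w₀ ≠ 1 ∨ w₁ ≠ 1) (n02 : w₀ ≠ 1 ∨ w₂ ≠ 1) (n03 : w₀ ≠ 1 ∨ w₃ ≠ 1)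
    (n12 : w₁ ≠ 1 ∨ w₂ ≠ 1) (n13 : w₁ ≠ 1 ∨ w₃ ≠ 1) (n23 : w₂ ≠ 1 ∨ w₃ ≠ 1) : False := by
  -- a line with exactly one point of weight `1`
  have key : ∀ {a b c d k : ℕ}, a = 1 → 3 ≤ b → 3 ≤ c → 3 ≤ d → a * b = 1 + k * ((a - 1) + (b - 1)) →
      c * d = 1 + k * ((c - 1) + (d - 1)) → False := by
    intro a b c d k ha hb hc hd h1 h2
    subst ha
    obtain ⟨y, rfl⟩ : ∃ y, b = y + 2 := ⟨b - 2, by omega⟩
    obtain ⟨z, rfl⟩ : ∃ z, c = z + 2 := ⟨c - 2, by omega⟩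
    obtain ⟨t, rfl⟩ : ∃ t, d = t + 2 := ⟨d - 2, by omega⟩
    simp only [Nat.sub_self, zero_add, one_mul, Nat.add_succ_sub_one] at h1 h2
    have hk : k = 1 := by
      have h3 : k * (y + 1) = 1 * (y + 1) := by omega
      exact Nat.eq_of_mul_eq_mul_right (Nat.succ_pos y) h3
    subst hk
    have h4 : (z + 2) * (t + 2) = z * t + 2 * z + 2 * t + 4 := by ring
    rw [h4] at h2
    omega
  have pos : ∀ {w : ℕ}, w ≠ 1 → (w = 1 ∨ 3 ≤ w) → 3 ≤ w := fun h h' => h'.resolve_left h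
  by_cases g0 : w₀ = 1
  · exact key g0 (pos (n01.resolve_left (by simpa using g0)) h1) (pos (n02.resolve_left (by simpa using g0)) h2)
      (pos (n03.resolve_left (by simpa using g0)) h3) e01 e23
  by_cases g1 : w₁ = 1
  · refine key g1 (pos g0 h0) (pos (n12.resolve_left (by simpa using g1)) h2)
      (pos (n13.resolve_left (by simpa using g1)) h3) (k := c₁) ?_ e23
    rw [mul_comm, e01, add_comm (w₀ - 1)]
  by_cases g2 : w₂ = 1
  · refine key g2 (pos (n23.resolve_left (by simpa using g2)) h3) (pos g0 h0) (pos g1 h1) (k := c₁) e23 e01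
  by_cases g3 : w₃ = 1
  · refine key g3 (pos g2 h2) (pos g0 h0) (pos g1 h1) (k := c₁) ?_ e01
    rw [mul_comm, e23, add_comm (w₂ - 1)]
  obtain ⟨x₀, rfl⟩ : ∃ y, w₀ = y + 1 := ⟨w₀ - 1, by omega⟩
  obtain ⟨x₁, rfl⟩ : ∃ y, w₁ = y + 1 := ⟨w₁ - 1, by omega⟩
  obtain ⟨x₂, rfl⟩ : ∃ y, w₂ = y + 1 := ⟨w₂ - 1, by omega⟩
  obtain ⟨x₃, rfl⟩ : ∃ y, w₃ = y + 1 := ⟨w₃ - 1, by omega⟩
  simp only [Nat.add_sub_cancel] at e01 e23 e02 e13 e03 e12 eT
  refine arith_four (x₀ := x₀) (x₁ := x₁) (x₂ := x₂) (x₃ := x₃) (c₁ := c₁) (c₂ := c₂) (c₃ := c₃) (n := n)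
    (by omega) (by omega) (by omega) (by omega) ?_ ?_ ?_ ?_ ?_ ?_ eT hn
  · linarith
  · linarith
  · linarith
  · linarith
  · linarith
  · linarith

open Classical in
theorem arith_two {ι κ : Type u} [Fintype ι] [Fintype κ] (hι : Fintype.card ι = 4)
    (hκ : Fintype.card κ = 3) (rel : κ → ι → ι → Prop) (he : ∀ X, Equivalence (rel X))
    (hu : ∀ a b, a ≠ b → ∃! X, rel X a b) (w : ι → ℕ) (hw : ∀ a, w a = 1 ∨ 3 ≤ w a) (c : κ → ℕ) (n : ℕ)
    (hL : ∀ X a, ∏ b with rel X a b, w b = 1 + c X * ∑ b with rel X a b, (w b - 1))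
    (hT : ∏ b, w b = 1 + n * ∑ b, (w b - 1)) (hn : n ≤ ∏ X, c X)
    (hnc : ∀ X a, ∃ b, w b ≠ 1 ∧ ¬ rel X a b) : False := by
  obtain ⟨e⟩ : Nonempty (Fin 4 ≃ ι) := ⟨(Fintype.equivFinOfCardEq hι).symm⟩
  have hinj : ∀ {i j : Fin 4}, i ≠ j → e i ≠ e j := fun h h' => h (e.injective h')
  have huniq : ∀ {a b : ι} {X Y : κ}, a ≠ b → rel X a b → rel Y a b → X = Y :=
    fun h h1 h2 => (hu _ _ h).unique h1 h2
  have hsym : ∀ {X : κ} {a b : ι}, rel X a b → rel X b a := fun h => (he _).symm h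
  have htr : ∀ {X : κ} {a b c : ι}, rel X a b → rel X b c → rel X a c := fun h h' => (he _).trans h h'
  -- four different directions do not exist
  have hfour : ∀ {X Y Z T : κ}, X ≠ Y → X ≠ Z → X ≠ T → Y ≠ Z → Y ≠ T → Z ≠ T → False := by
    intro X Y Z T h1 h2 h3 h4 h5 h6
    have h7 : ({X, Y, Z, T} : Finset κ).card = 4 := by
      rw [Finset.card_insert_of_notMem (by simp [h1, h2, h3]), Finset.card_insert_of_notMem (by simp [h4, h5]),
        Finset.card_insert_of_notMem (by simp [h6]), Finset.card_singleton]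
    have h8 := Finset.card_le_univ ({X, Y, Z, T} : Finset κ)
    omega
  have hfin : ∀ a b c : Fin 4, a ≠ b → a ≠ c → b ≠ c →
      ∃ d, d ≠ a ∧ d ≠ b ∧ d ≠ c ∧ ∀ x, x = a ∨ x = b ∨ x = c ∨ x = d := by decide
  -- no three points on a line
  have h3 : ∀ {a b c : Fin 4} {X : κ}, a ≠ b → a ≠ c → b ≠ c → rel X (e a) (e b) → rel X (e a) (e c) → False := by
    intro a b c X hab hac hbc r1 r2
    obtain ⟨d, hda, hdb, hdc, hall⟩ := hfin a b c hab hac hbc
    have r3 : rel X (e b) (e c) := htr (hsym r1) r2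
    by_cases r4 : rel X (e a) (e d)
    · obtain ⟨b', -, hb'⟩ := hnc X (e a)
      apply hb'
      obtain ⟨i, rfl⟩ := e.surjective b'
      rcases hall i with rfl | rfl | rfl | rfl
      · exact (he X).refl _
      · exact r1
      · exact r2
      · exact r4
    · obtain ⟨Y, hY, -⟩ := hu (e d) (e a) (hinj hda)
      obtain ⟨Z, hZ, -⟩ := hu (e d) (e b) (hinj hdb)
      obtain ⟨T, hT', -⟩ := hu (e d) (e c) (hinj hdc)
      have r5 : ¬ rel X (e d) (e b) := fun h => r4 (hsym (htr h (hsym r1)))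
      have r6 : ¬ rel X (e d) (e c) := fun h => r4 (hsym (htr h (hsym r2)))
      refine hfour (X := X) (Y := Y) (Z := Z) (T := T) ?_ ?_ ?_ ?_ ?_ ?_
      · rintro rfl; exact r4 (hsym hY)
      · rintro rfl; exact r5 hZ
      · rintro rfl; exact r6 hT'
      · rintro rfl
        have h9 := huniq (hinj hab) r1 (htr (hsym hY) hZ)
        rw [← h9] at hY
        exact r4 (hsym hY)
      · rintro rfl
        have h9 := huniq (hinj hac) r2 (htr (hsym hY) hT')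
        rw [← h9] at hY
        exact r4 (hsym hY)
      · rintro rfl
        have h9 := huniq (hinj hbc) r3 (htr (hsym hZ) hT')
        rw [← h9] at hZ
        exact r5 hZ
  obtain ⟨X₁, r01, -⟩ := hu (e 0) (e 1) (hinj (by decide))
  obtain ⟨X₂, r02, -⟩ := hu (e 0) (e 2) (hinj (by decide))
  obtain ⟨X₃, r03, -⟩ := hu (e 0) (e 3) (hinj (by decide))
  have d12 : X₁ ≠ X₂ := by rintro rfl; exact h3 (by decide) (by decide) (by decide) r01 r02
  have d13 : X₁ ≠ X₃ := by rintro rfl; exact h3 (by decide) (by decide) (by decide) r01 r03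
  have d23 : X₂ ≠ X₃ := by rintro rfl; exact h3 (by decide) (by decide) (by decide) r02 r03
  have hall : ∀ X : κ, X = X₁ ∨ X = X₂ ∨ X = X₃ := by
    intro X
    by_contra h
    push Not at h
    exact hfour h.1 h.2.1 h.2.2 d12 d13 d23
  -- the other three pairs
  have r23 : rel X₁ (e 2) (e 3) := by
    obtain ⟨X, hX, -⟩ := hu (e 2) (e 3) (hinj (by decide))
    rcases hall X with rfl | rfl | rfl
    · exact hX
    · exact (h3 (a := 2) (b := 0) (c := 3) (by decide) (by decide) (by decide) (hsym r02) hX).elim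
    · exact (h3 (a := 3) (b := 0) (c := 2) (by decide) (by decide) (by decide) (hsym r03) (hsym hX)).elim
  have r13 : rel X₂ (e 1) (e 3) := by
    obtain ⟨X, hX, -⟩ := hu (e 1) (e 3) (hinj (by decide))
    rcases hall X with rfl | rfl | rfl
    · exact (h3 (a := 1) (b := 0) (c := 3) (by decide) (by decide) (by decide) (hsym r01) hX).elim
    · exact hX
    · exact (h3 (a := 3) (b := 0) (c := 1) (by decide) (by decide) (by decide) (hsym r03) (hsym hX)).elim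
  have r12 : rel X₃ (e 1) (e 2) := by
    obtain ⟨X, hX, -⟩ := hu (e 1) (e 2) (hinj (by decide))
    rcases hall X with rfl | rfl | rfl
    · exact (h3 (a := 1) (b := 0) (c := 2) (by decide) (by decide) (by decide) (hsym r01) hX).elim
    · exact (h3 (a := 2) (b := 0) (c := 1) (by decide) (by decide) (by decide) (hsym r02) (hsym hX)).elim
    · exact hX
  -- a line has exactly two points
  have hline : ∀ {i j : Fin 4} {X : κ}, i ≠ j → rel X (e i) (e j) → ∀ b : ι, rel X (e i) b ↔ (b = e i ∨ b = e j) := by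
    intro i j X hij hr b
    constructor
    · intro h
      obtain ⟨k, rfl⟩ := e.surjective b
      by_contra h'
      push Not at h'
      exact h3 hij (fun h => h'.1 (by rw [h])) (fun h => h'.2 (by rw [h])) hr h
    · rintro (rfl | rfl)
      · exact (he X).refl _
      · exact hr
  have heq : ∀ {i j : Fin 4} {X : κ}, i ≠ j → rel X (e i) (e j) →
      w (e i) * w (e j) = 1 + c X * ((w (e i) - 1) + (w (e j) - 1)) := by
    intro i j X hij hr
    have h1 := hL X (e i)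
    have h2 : (Finset.univ.filter fun b => rel X (e i) b) = {e i, e j} := by
      ext b
      rw [Finset.mem_filter, hline hij hr]
      simp
    rw [h2, Finset.prod_pair (hinj hij), Finset.sum_pair (hinj hij)] at h1
    exact h1
  have hne : ∀ {i j : Fin 4} {X : κ}, i ≠ j → rel X (e i) (e j) → ∀ {k l : Fin 4}, (∀ x : Fin 4, x = i ∨ x = j ∨ x = k ∨ x = l) →
      w (e k) ≠ 1 ∨ w (e l) ≠ 1 := by
    intro i j X hij hr k l hkl
    obtain ⟨b, hb, hb'⟩ := hnc X (e i)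
    obtain ⟨m, rfl⟩ := e.surjective b
    rw [hline hij hr] at hb'
    push Not at hb'
    rcases hkl m with rfl | rfl | rfl | rfl
    · exact absurd rfl hb'.1
    · exact absurd rfl hb'.2
    · exact Or.inl hb
    · exact Or.inr hb
  have hp : ∏ X, c X = c X₁ * c X₂ * c X₃ := by
    have h1 : (Finset.univ : Finset κ) = {X₁, X₂, X₃} := by
      ext X
      simpa using hall X
    rw [h1, Finset.prod_insert (by simp [d12, d13]), Finset.prod_pair d23, mul_assoc]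
  rw [hp] at hn
  rw [← e.prod_comp, ← e.sum_comp, Fin.prod_univ_four, Fin.sum_univ_four] at hT
  exact arith_four' (hw (e 0)) (hw (e 1)) (hw (e 2)) (hw (e 3)) (heq (by decide) r01) (heq (by decide) r23)
    (heq (by decide) r02) (heq (by decide) r13) (heq (by decide) r03) (heq (by decide) r12) hT hn
    (hne (by decide) r23 (by decide)) (hne (by decide) r13 (by decide)) (hne (by decide) r12 (by decide))
    (hne (by decide) r03 (by decide)) (hne (by decide) r02 (by decide)) (hne (by decide) r01 (by decide))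

/-! ### `A₇` -/

/-- the identities -/
theorem seven_int {A B C c1 c3 : ℤ} (hA : 0 ≤ A) (hB : 0 ≤ B) (hC : 0 ≤ C)
    (e1 : (A + 1) * (B + 1) ^ 2 = 1 + c1 * (A + 2 * B)) (e2 : (B + 1) * (C + 1) ^ 2 = 1 + c1 * (B + 2 * C))
    (e3 : (A + 1) * (C + 1) ^ 2 = 1 + c3 * (A + 2 * C)) (e4 : (C + 1) * (B + 1) ^ 2 = 1 + c3 * (C + 2 * B))
    (hne : B ≠ C) : (A + 2 * B) * (A + 2 * C) = 0 := by
  have i1 : (c3 - c1) * ((C + 2 * B) * (B + 2 * C)) =
      (B - C) * (B ^ 2 * C + B * C ^ 2 + B * C + B ^ 2 + C ^ 2) := by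
    linear_combination (C + 2 * B) * e2 - (B + 2 * C) * e4
  have i2 : (c1 - c3) * ((A + 2 * B) * (A + 2 * C)) =
      (B - C) * (A ^ 2 * (B + C + 2) + A * (B + C) + 2 * A * B * C + 2 * B * C) := by
    linear_combination (A + 2 * B) * e3 - (A + 2 * C) * e1
  have i3 : (B - C) * ((B ^ 2 * C + B * C ^ 2 + B * C + B ^ 2 + C ^ 2) * ((A + 2 * B) * (A + 2 * C)) +
      (A ^ 2 * (B + C + 2) + A * (B + C) + 2 * A * B * C + 2 * B * C) * ((C + 2 * B) * (B + 2 * C))) = 0 := by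
    linear_combination -((A + 2 * B) * (A + 2 * C)) * i1 - ((C + 2 * B) * (B + 2 * C)) * i2
  have i4 := (mul_eq_zero.1 i3).resolve_left (sub_ne_zero.2 hne)
  have hV : 0 ≤ (A + 2 * B) * (A + 2 * C) := by positivity
  have hK1 : 0 < B ^ 2 * C + B * C ^ 2 + B * C + B ^ 2 + C ^ 2 := by
    rcases eq_or_lt_of_le hB with h | h
    · rcases eq_or_lt_of_le hC with h' | h'
      · exact absurd (h.symm.trans h') hne
      · positivity
    · positivity
  have hK2 : 0 ≤ (A ^ 2 * (B + C + 2) + A * (B + C) + 2 * A * B * C + 2 * B * C) *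
      ((C + 2 * B) * (B + 2 * C)) := by positivity
  have h5 : (B ^ 2 * C + B * C ^ 2 + B * C + B ^ 2 + C ^ 2) * ((A + 2 * B) * (A + 2 * C)) = 0 := by
    have h6 : 0 ≤ (B ^ 2 * C + B * C ^ 2 + B * C + B ^ 2 + C ^ 2) * ((A + 2 * B) * (A + 2 * C)) :=
      mul_nonneg hK1.le hV
    linarith
  exact (mul_eq_zero.1 h5).resolve_left hK1.ne'

theorem arith_seven {w0 w1 w2 c1 c3 : ℕ} (h0 : 1 ≤ w0) (h1 : 1 ≤ w1) (h2 : 1 ≤ w2)
    (hc : Even c1) (e1 : w0 * w1 ^ 2 = 1 + c1 * ((w0 - 1) + 2 * (w1 - 1)))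
    (e2 : w1 * w2 ^ 2 = 1 + c1 * ((w1 - 1) + 2 * (w2 - 1)))
    (e3 : w0 * w2 ^ 2 = 1 + c3 * ((w0 - 1) + 2 * (w2 - 1)))
    (e4 : w2 * w1 ^ 2 = 1 + c3 * ((w2 - 1) + 2 * (w1 - 1))) : w0 = 1 ∧ w1 = 1 ∧ w2 = 1 := by
  obtain ⟨A, rfl⟩ : ∃ y, w0 = y + 1 := ⟨w0 - 1, by omega⟩
  obtain ⟨B, rfl⟩ : ∃ y, w1 = y + 1 := ⟨w1 - 1, by omega⟩
  obtain ⟨C, rfl⟩ : ∃ y, w2 = y + 1 := ⟨w2 - 1, by omega⟩
  simp only [Nat.add_sub_cancel] at e1 e2 e3 e4
  have hBC : B = C := by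
    by_contra hne
    have h3 := seven_int (A := A) (B := B) (C := C) (c1 := c1) (c3 := c3) (by positivity) (by positivity)
      (by positivity) (by exact_mod_cast e1) (by exact_mod_cast e2) (by exact_mod_cast e3) (by exact_mod_cast e4)
      (by exact_mod_cast hne)
    have h4 : (A + 2 * B) * (A + 2 * C) = 0 := by exact_mod_cast h3
    rcases Nat.mul_eq_zero.1 h4 with h5 | h5
    · have hA : A = 0 := by omega
      have hB : B = 0 := by omega
      subst hA hB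
      have h6 : c3 = 1 := by
        have : c3 * C = 1 * C := by
          simp only [zero_add, one_pow, mul_one, mul_zero, add_zero] at e4
          omega
        exact Nat.eq_of_mul_eq_mul_right (Nat.pos_of_ne_zero (fun h => hne h.symm)) this
      subst h6
      have h7 : (C + 1) ^ 2 = C ^ 2 + 2 * C + 1 := by ring
      simp only [zero_add, one_mul] at e3
      rw [h7] at e3
      have h8 : C ^ 2 = 0 := by omega
      exact hne (pow_eq_zero_iff two_ne_zero |>.1 h8).symm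
    · have hA : A = 0 := by omega
      have hC : C = 0 := by omega
      subst hA hC
      have h6 : c1 = 1 := by
        have : c1 * B = 1 * B := by
          simp only [zero_add, one_pow, mul_one, mul_zero, add_zero] at e2
          omega
        exact Nat.eq_of_mul_eq_mul_right (Nat.pos_of_ne_zero hne) this
      subst h6
      exact absurd hc (by decide)
  subst hBC
  have hB : B = 0 := by
    by_contra hB
    have h3 : (B + 1) ^ 2 + (B + 1) + 1 = 3 * c1 := by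
      apply Nat.eq_of_mul_eq_mul_left (Nat.pos_of_ne_zero hB)
      have h4 : (B + 1) * (B + 1) ^ 2 = B * ((B + 1) ^ 2 + (B + 1) + 1) + 1 := by ring
      rw [h4] at e2
      have h5 : c1 * (B + 2 * B) = B * (3 * c1) := by ring
      rw [h5] at e2
      omega
    obtain ⟨k, hk⟩ := hc
    have h4 : (B + 1) ^ 2 + (B + 1) + 1 = (B + 1) * (B + 1 + 1) + 1 := by ring
    obtain ⟨l, hl⟩ := Nat.even_mul_succ_self (B + 1)
    omega
  subst hB
  have hA : A = 0 := by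
    by_contra hA
    have h3 : c1 = 1 := by
      have : c1 * A = 1 * A := by
        simp only [zero_add, one_pow, mul_one, mul_zero, add_zero] at e1
        omega
      exact Nat.eq_of_mul_eq_mul_right (Nat.pos_of_ne_zero hA) this
    subst h3
    exact absurd hc (by decide)
  subst hA
  simp

end Cfsg.Agent.H117.PSq
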