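import Cfsg.Agent.H117.PSq.SevenE

/-!
# S4844, PS-5: `seven3` (helper117)
-/

set_option autoImplicit false
set_option linter.unusedSectionVars false

open Cfsg Subgroup

namespace Cfsg.Agent.H117.PSq

open Cfsg.Agent.H696.PSq Equiv

universe u v

theorem one_ne_zmod : ¬ (1 : ZMod 3) = 0 := by decide

/-- no abelian subgroup of order `27` containing `a` is normalized by `t` -/
theorem no_fixed {G : Type u} [Group G] [Finite G] (f : G →* alternatingGroup (Fin 7)) (hf : Function.Surjective f)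
    (hk : ¬ 9 ∣ Nat.card f.ker) {A : Subgroup G} (hA : A ≤ center G) (hAc : Nat.card A = 3)
    {a t : G} (hfa : f a = qa) (hft : f t = qv) (Q : Subgroup G) (hQc : Nat.card Q = 27)
    (hQa : ∀ x ∈ Q, x * a = a * x) (hQcomm : ∀ x ∈ Q, ∀ y ∈ Q, x * y = y * x) (hQexp : ∀ x ∈ Q, x ^ 3 = 1)
    (hQt : ∀ x ∈ Q, t * x * t⁻¹ ∈ Q) : False := by
  obtain ⟨x, hx, hxn⟩ : ∃ x ∈ Q, f x ∉ zpowers qa := by
    by_contra hcon
    push Not at hcon
    have h1 : Q ≤ (zpowers qa).comap f := fun x hx => hcon x hx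
    have h2 := fact_comap f hf hk hA hAc
    have h3 := Subgroup.card_dvd_of_le h1
    rw [hQc] at h3
    have h4 : (3 : ℕ) ^ 3 ∣ Nat.card ((zpowers qa).comap f) := by
      have : (3 : ℕ) ^ 3 = 27 := by norm_num
      rw [this]; exact h3
    rw [Nat.prime_three.pow_dvd_iff_le_factorization Nat.card_pos.ne', h2] at h4
    omega
  apply hxn
  have e1 : f x * qa = qa * f x := by
    rw [← hfa, ← map_mul, ← map_mul, hQa x hx]
  have e2 : f x ^ 3 = 1 := by rw [← map_pow, hQexp x hx, map_one]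
  have e3 : f x * (qv * f x * qv⁻¹) = (qv * f x * qv⁻¹) * f x := by
    rw [← hft, ← map_inv, ← map_mul, ← map_mul, ← map_mul, ← map_mul, hQcomm x hx _ (hQt x hx)]
  have h := centralizer_pa (f x).1 (congrArg Subtype.val e1) (congrArg Subtype.val e2) (congrArg Subtype.val e3)
  rcases h with h | h | h
  · have h1 : f x = 1 := Subtype.ext h
    rw [h1]
    exact one_mem _
  · have h1 : f x = qa := Subtype.ext h
    rw [h1]
    exact mem_zpowers _
  · have h1 : f x = qa * qa := Subtype.ext h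
    rw [h1]
    exact mul_mem (mem_zpowers _) (mem_zpowers _)

/-- the number of Sylow `3`-subgroups of the centralizer is even -/
theorem even_cX {C : Type u} [Group C] [Finite C] {A : Subgroup C} (hA : A ≤ center C) (hAc : Nat.card A = 3)
    (P : Sylow 3 C) (hPc : Nat.card (P : Subgroup C) = 27) (hcomm : ∀ x ∈ (P : Subgroup C), ∀ y ∈ (P : Subgroup C), x * y = y * x)
    (hexp : ∀ x ∈ (P : Subgroup C), x ^ 3 = 1) (h3 : (Nat.card C).factorization 3 = 3)
    (N : Subgroup C) [N.Normal] (hPN : (P : Subgroup C) ≤ N) (hAN : A ≤ N)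
    (f : N →* alternatingGroup (Fin 7)) (hf : Function.Surjective f) (hk : ¬ 9 ∣ Nat.card f.ker)
    {a t : N} (hfa : f a = qa) (hft : f t = qv) (hta : t * a = a * t)
    (ht2 : ∃ k, t ^ 2 ^ k = 1) (X : Subgroup C) (hXP : X ≤ (P : Subgroup C)) (haX : (a : C) ∈ X)
    (hX : ∀ x ∈ X, ∃ k : ZMod 3, ∃ c ∈ A, x = pw (a : C) k * c) : Even (cX 3 X) := by
  unfold cX
  set D := centralizer (X : Set C) with hD
  have htc : (t : C) * a = a * t := congrArg Subtype.val hta
  have htD : (t : C) ∈ D := by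
    rw [hD, mem_centralizer_iff]
    intro x hx
    obtain ⟨k, c, hc, rfl⟩ := hX x hx
    have h1 : (t : C) * c = c * t := mem_center_iff.1 (hA hc) t
    have h2 : Commute (t : C) (pw (a : C) k) := (show Commute (t : C) (a : C) from htc).pow_right _
    rw [mul_assoc, ← h1, ← mul_assoc, ← h2.eq, mul_assoc]
  have hPD : (P : Subgroup C) ≤ D := by
    intro x hx
    rw [hD, mem_centralizer_iff]
    intro y hy
    exact hcomm y (hXP hy) x hx
  have hDf : (Nat.card D).factorization 3 = 3 := by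
    apply le_antisymm
    · refine le_trans ?_ h3.le
      have h0 : Nat.card D ∣ Nat.card C := card_subgroup_dvd_card _
      exact (Nat.factorization_le_iff_dvd (Nat.card_pos (α := D)).ne' (Nat.card_pos (α := C)).ne').2 h0 3
    · rw [← Nat.prime_three.pow_dvd_iff_le_factorization (n := Nat.card D) Nat.card_pos.ne']
      have h1 : (3 ^ 3 : ℕ) = Nat.card (P : Subgroup C) := by rw [hPc]; norm_num
      rw [h1]
      exact Subgroup.card_dvd_of_le hPD
  let t' : D := ⟨t, htD⟩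
  have hT : IsPGroup 2 (zpowers t') := by
    obtain ⟨k, hk'⟩ := ht2
    rintro ⟨x, hx⟩
    obtain ⟨n, rfl⟩ := mem_zpowers_iff.1 hx
    refine ⟨k, Subtype.ext ?_⟩
    change (t' ^ n) ^ 2 ^ k = 1
    rw [← zpow_natCast, ← zpow_mul, mul_comm, zpow_mul, zpow_natCast]
    have h1 : t' ^ 2 ^ k = 1 := by
      apply Subtype.ext
      have := congrArg Subtype.val hk'
      exact this
    rw [h1, one_zpow]
  have : Fact (Nat.Prime 2) := ⟨Nat.prime_two⟩
  have hmod := hT.card_modEq_card_fixedPoints (Sylow 3 D)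
  have hempty : IsEmpty (MulAction.fixedPoints (zpowers t') (Sylow 3 D)) := by
    constructor
    rintro ⟨Q, hQ⟩
    have hQt : t' • Q = Q := hQ ⟨t', mem_zpowers t'⟩
    have hQc : Nat.card (Q : Subgroup D) = 27 := by
      rw [Q.card_eq_multiplicity, hDf]; norm_num
    -- elements of `Q`
    have hQm : Nat.card ((Q : Subgroup D).map D.subtype) = 27 := by
      rw [← hQc]
      exact (Nat.card_congr ((Q : Subgroup D).equivMapOfInjective _ D.subtype_injective).toEquiv).symm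
    obtain ⟨m, -, hm⟩ := conj_into (p := 3) ⊤ ((Q : Subgroup D).map D.subtype) (P : Subgroup C) le_top le_top
      (by rw [hQm, card_top, h3]; norm_num) (by rw [hPc, card_top, h3]; norm_num)
    have hQP : ∀ x ∈ (Q : Subgroup D), m * (x : C) * m⁻¹ ∈ (P : Subgroup C) := fun x hx => hm _ ⟨x, hx, rfl⟩
    have hQN : ∀ x ∈ (Q : Subgroup D), (x : C) ∈ N := by
      intro x hx
      have h1 := ‹N.Normal›.conj_mem _ (hPN (hQP x hx)) m⁻¹
      have h2 : m⁻¹ * (m * (x : C) * m⁻¹) * m⁻¹⁻¹ = x := by group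
      rwa [h2] at h1
    let Q' : Subgroup N := ((Q : Subgroup D).map D.subtype).subgroupOf N
    have hQ'le : (Q : Subgroup D).map D.subtype ≤ N := by
      rintro _ ⟨x, hx, rfl⟩
      exact hQN x hx
    have hAk : A.subgroupOf N ≤ center N := by
      intro x hx
      rw [mem_center_iff]
      intro y
      exact Subtype.ext (mem_center_iff.1 (hA hx) (y : C))
    have hAk' : Nat.card (A.subgroupOf N) = 3 := by
      rw [Nat.card_congr (subgroupOfEquivOfLe hAN).toEquiv, hAc]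
    have hmemQ : ∀ x : N, x ∈ Q' ↔ ∃ y ∈ (Q : Subgroup D), (y : C) = x := fun x => Iff.rfl
    refine no_fixed f hf hk hAk hAk' hfa hft Q' ?_ ?_ ?_ ?_ ?_
    · rw [Nat.card_congr (subgroupOfEquivOfLe hQ'le).toEquiv, hQm]
    · intro x hx
      obtain ⟨y, -, hyx⟩ := (hmemQ x).1 hx
      apply Subtype.ext
      change (x : C) * a = a * x
      rw [← hyx]
      exact (mem_centralizer_iff.1 y.2 a haX).symm
    · intro x hx y hy
      obtain ⟨x', hx', hxe⟩ := (hmemQ x).1 hx
      obtain ⟨y', hy', hye⟩ := (hmemQ y).1 hy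
      apply Subtype.ext
      change (x : C) * y = y * x
      rw [← hxe, ← hye]
      have h1 := hcomm _ (hQP x' hx') _ (hQP y' hy')
      have h2 : (x' : C) * y' = m⁻¹ * ((m * x' * m⁻¹) * (m * y' * m⁻¹)) * m := by group
      have h4 : (y' : C) * x' = m⁻¹ * ((m * y' * m⁻¹) * (m * x' * m⁻¹)) * m := by group
      rw [h2, h4, h1]
    · intro x hx
      obtain ⟨x', hx', hxe⟩ := (hmemQ x).1 hx
      apply Subtype.ext
      change (x : C) ^ 3 = 1
      rw [← hxe]
      have h1 := hexp _ (hQP x' hx')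
      rw [conj_pow] at h1
      have h2 : (x' : C) ^ 3 = m⁻¹ * (m * x' ^ 3 * m⁻¹) * m := by group
      rw [h2, h1]
      group
    · intro x hx
      obtain ⟨x', hx', hxe⟩ := (hmemQ x).1 hx
      refine (hmemQ _).2 ⟨t' * x' * t'⁻¹, ?_, ?_⟩
      · have h1 : t' * x' * t'⁻¹ ∈ ((t' • Q : Sylow 3 D) : Subgroup D) := by
          rw [Sylow.coe_subgroup_smul]
          exact ⟨x', hx', rfl⟩
        rwa [hQt] at h1
      · change (t : C) * x' * (t : C)⁻¹ = t * x * (t : C)⁻¹
        rw [hxe]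
  rw [Nat.card_of_isEmpty (α := MulAction.fixedPoints (zpowers t') (Sylow 3 D))] at hmod
  exact Nat.even_iff.2 hmod

theorem seven3 {C : Type u} [Group C] [Finite C] {W : Type v} [CommGroup W] [Finite W] [Fact (Nat.Prime 3)]
    [MulDistribMulAction C W] {A : Subgroup C} (h : PartHyp 3 W A) (P : Sylow 3 C)
    (E : Eqs 3 W A (P : Subgroup C)) (N : Subgroup C) [N.Normal] (hPN : (P : Subgroup C) ≤ N)
    (f : N →* alternatingGroup (Fin 7)) (hf : Function.Surjective f) (hk : ¬ 9 ∣ Nat.card f.ker) : False := by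
  classical
  have hA := h.central
  have hAc : Nat.card A = 3 := h.cardA
  have hPc : Nat.card (P : Subgroup C) = 27 := by
    rw [P.card_eq_multiplicity, h.three]; norm_num
  have hcomm : ∀ x ∈ (P : Subgroup C), ∀ y ∈ (P : Subgroup C), x * y = y * x := by
    intro x hx y hy
    exact congrArg Subtype.val (E.comm.is_comm.comm ⟨x, hx⟩ ⟨y, hy⟩)
  have hexp := E.exp
  have hAP : A ≤ (P : Subgroup C) := by
    have h1 : IsPGroup 3 A := IsPGroup.of_card (n := 1) (by rw [hAc]; norm_num)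
    obtain ⟨Q, hQ⟩ := h1.exists_le_sylow
    obtain ⟨g, hg⟩ := MulAction.exists_smul_eq C Q P
    intro x hx
    rw [← hg, ← SetLike.mem_coe, Sylow.coe_subgroup_smul]
    refine ⟨x, hQ hx, ?_⟩
    change g * x * g⁻¹ = x
    rw [mem_center_iff.1 (hA hx) g, mul_inv_cancel_right]
  have hAN : A ≤ N := hAP.trans hPN
  -- inside `N`
  have hA' : A.subgroupOf N ≤ center N := by
    intro x hx
    rw [mem_center_iff]
    intro y
    exact Subtype.ext (mem_center_iff.1 (hA hx) (y : C))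
  have hAc' : Nat.card (A.subgroupOf N) = 3 := by
    rw [Nat.card_congr (subgroupOfEquivOfLe hAN).toEquiv, hAc]
  have hAP' : A.subgroupOf N ≤ (P : Subgroup C).subgroupOf N := fun x hx => hAP hx
  have hPc' : Nat.card ((P : Subgroup C).subgroupOf N) = 27 := by
    rw [Nat.card_congr (subgroupOfEquivOfLe hPN).toEquiv, hPc]
  have hNf : (Nat.card N).factorization 3 = 3 := by
    apply le_antisymm
    · refine le_trans ?_ h.three.le
      have h0 : Nat.card N ∣ Nat.card C := card_subgroup_dvd_card _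
      exact (Nat.factorization_le_iff_dvd (Nat.card_pos (α := N)).ne' (Nat.card_pos (α := C)).ne').2 h0 3
    · rw [← Nat.prime_three.pow_dvd_iff_le_factorization (n := Nat.card N) Nat.card_pos.ne']
      have h1 : (3 ^ 3 : ℕ) = Nat.card (P : Subgroup C) := by rw [hPc]; norm_num
      rw [h1]
      exact Subgroup.card_dvd_of_le hPN
  have hcomm' : ∀ x ∈ (P : Subgroup C).subgroupOf N, ∀ y ∈ (P : Subgroup C).subgroupOf N, x * y = y * x :=
    fun x hx y hy => Subtype.ext (hcomm x hx y hy)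
  have hexp' : ∀ x ∈ (P : Subgroup C).subgroupOf N, x ^ 3 = 1 := fun x hx => Subtype.ext (hexp x hx)
  obtain ⟨f', hf', hk', hP₀⟩ := exists_conj f hf hk hA' hAc' hAP' hPc'
  obtain ⟨a, b, g, ha, hb, hg, hga, hgb, hfa, hfb⟩ :=
    exists_abg f' hf' hk' hA' hAc' hAP' hPc' hNf hcomm' hexp' hP₀
  obtain ⟨t, hta, ht2, hft⟩ := exists_t f' hf' hk' hA' hAc' hAP' hPc' hexp' ha hfa
  -- generation and independence
  have hcoe : ∀ (x : N) (k : ZMod 3), ((pw x k : N) : C) = pw (x : C) k := fun x k => map_pw N.subtype x k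
  have hgen : ∀ x ∈ (P : Subgroup C), ∃ i j : ZMod 3, ∃ c ∈ A, x = pw (a : C) i * pw (b : C) j * c := by
    intro x hx
    obtain ⟨i, j, hij⟩ := mem_P₀.1 (hP₀ ⟨x, hPN hx⟩ hx)
    have h1 : (pw a i * pw b j)⁻¹ * ⟨x, hPN hx⟩ ∈ A.subgroupOf N := by
      refine mem_A f' hf' hk' hA' hAc' hAP' hPc'
        (mul_mem (inv_mem (mul_mem (pw_mem ha i) (pw_mem hb j))) hx) ?_
      rw [map_mul, map_inv, map_mul, map_pw, map_pw, hfa, hfb, hij, inv_mul_cancel]
    refine ⟨i, j, _, h1, ?_⟩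
    have h2 : (((pw a i * pw b j)⁻¹ * ⟨x, hPN hx⟩ : N) : C) = (pw (a : C) i * pw (b : C) j)⁻¹ * x := by
      rw [← hcoe, ← hcoe]
      rfl
    change x = pw (a : C) i * pw (b : C) j * (((pw a i * pw b j)⁻¹ * ⟨x, hPN hx⟩ : N) : C)
    rw [h2, mul_inv_cancel_left]
  have hind : ∀ i j : ZMod 3, pw (a : C) i * pw (b : C) j ∈ A → i = 0 ∧ j = 0 := by
    intro i j hij
    have h1 : pw a i * pw b j ∈ A.subgroupOf N := by
      change ((pw a i * pw b j : N) : C) ∈ A
      have h2 : ((pw a i * pw b j : N) : C) = pw (a : C) i * pw (b : C) j := by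
        rw [← hcoe, ← hcoe]
        rfl
      rw [h2]
      exact hij
    have h3 := le_ker f' hf' hA' h1
    rw [MonoidHom.mem_ker, map_mul, map_pw, map_pw, hfa, hfb] at h3
    exact qab_ind i j h3
  -- a generator of `A`
  obtain ⟨z, hz, hz1⟩ : ∃ z ∈ A, z ≠ 1 := by
    have h1 : A ≠ ⊥ := by
      intro h2
      rw [h2, card_bot] at hAc
      norm_num at hAc
    obtain ⟨z, hz, hz1⟩ := (Subgroup.bot_or_exists_ne_one A).resolve_left h1
    exact ⟨z, hz, hz1⟩
  have hz3 : z ^ 3 = 1 := hexp z (hAP hz)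
  have hzc : ∀ (t : ZMod 3) (x : C), x * pw z t = pw z t * x := fun t x =>
    mem_center_iff.1 (hA (pw_mem hz t)) x
  have haC : (a : C) ∈ (P : Subgroup C) := ha
  have hbC : (b : C) ∈ (P : Subgroup C) := hb
  obtain ⟨ε, hε⟩ := exists_equiv hA hAP hPc hcomm hexp hz hz1 haC hbC hgen hind
  -- the action of `g`
  have hgC : ∀ x ∈ (P : Subgroup C), (g : C) * x * (g : C)⁻¹ ∈ (P : Subgroup C) := fun x hx => hg ⟨x, hPN hx⟩ hx
  have hga' : (g : C) * a * (g : C)⁻¹ = b := congrArg Subtype.val hga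
  have hgb' : (g : C) * b * (g : C)⁻¹ = (a : C)⁻¹ := congrArg Subtype.val hgb
  let gR : Pt 3 (P : Subgroup C) A → Pt 3 (P : Subgroup C) A := fun R =>
    ⟨(R : Subgroup C).map (MulAut.conj (g : C)).toMonoidHom, by
      refine ⟨?_, ?_, ?_⟩
      · rintro _ ⟨x, hx, rfl⟩
        exact hgC x (R.2.1 hx)
      · rw [← Nat.card_congr ((R : Subgroup C).equivMapOfInjective _ (MulAut.conj (g : C)).injective).toEquiv]
        exact R.2.2.1
      · rw [eq_bot_iff]
        rintro _ ⟨⟨x, hx, rfl⟩, hxA⟩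
        have h1 : (MulAut.conj (g : C)).toMonoidHom x = x := by
          have h2 : (g : C)⁻¹ * ((MulAut.conj (g : C)).toMonoidHom x) * (g : C) = x := by
            change (g : C)⁻¹ * ((g : C) * x * (g : C)⁻¹) * (g : C) = x
            group
          have h3 := mem_center_iff.1 (hA hxA) (g : C)⁻¹
          rw [h3, inv_mul_cancel_right] at h2
          exact h2
        rw [h1] at hxA ⊢
        have h4 : x ∈ (R : Subgroup C) ⊓ A := ⟨hx, hxA⟩
        rwa [R.2.2.2] at h4⟩
  have hwt : ∀ R, wt W ((gR R : Subgroup C)) = wt W (R : Subgroup C) := by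
    intro R
    unfold wt
    refine (Nat.card_congr (Equiv.ofBijective (fun l : {l : W // ∀ x ∈ (R : Subgroup C), x • l = l} =>
      (⟨(g : C) • l.1, ?_⟩ : {l : W // ∀ x ∈ (gR R : Subgroup C), x • l = l})) ⟨?_, ?_⟩)).symm
    · rintro _ ⟨x, hx, rfl⟩
      change ((g : C) * x * (g : C)⁻¹) • ((g : C) • l.1) = (g : C) • l.1
      rw [smul_smul, inv_mul_cancel_right, mul_smul, l.2 x hx]
    · intro l l' hll
      have h1 : (g : C) • l.1 = (g : C) • l'.1 := congrArg Subtype.val hll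
      exact Subtype.ext (MulAction.injective (g : C) h1)
    · rintro ⟨l, hl⟩
      refine ⟨⟨(g : C)⁻¹ • l, fun x hx => ?_⟩, Subtype.ext ?_⟩
      · have h1 := hl ((g : C) * x * (g : C)⁻¹) ⟨x, hx, rfl⟩
        have h2 : x • ((g : C)⁻¹ • l) = (g : C)⁻¹ • (((g : C) * x * (g : C)⁻¹) • l) := by
          rw [smul_smul, smul_smul]
          congr 1
          group
        rw [h2, h1]
      · change (g : C) • ((g : C)⁻¹ • l) = l
        rw [smul_inv_smul]
  have hεg : ∀ R, ε (gR R) = (-(ε R).2, (ε R).1) := by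
    intro R
    obtain ⟨k1, k2⟩ := hε R
    obtain ⟨k3, k4⟩ := hε (gR R)
    refine Prod.ext ?_ ?_
    · refine (exists_tau hAP hPc hz hz1 hz3 (gR R) haC).unique k3 ?_
      -- `a * pw z j ∈ gR R`
      have h1 : (g : C) * (b * pw z (-(ε R).2)) * (g : C)⁻¹ ∈ (gR R : Subgroup C) := ⟨_, k2, rfl⟩
      rw [conj_mul_central (hzc _), hgb'] at h1
      have h2 := inv_mem h1
      rw [mul_inv_rev, inv_inv, ← pw_neg hz3, ← hzc] at h2
      exact h2
    · refine (exists_tau hAP hPc hz hz1 hz3 (gR R) hbC).unique k4 ?_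
      have h1 : (g : C) * (a * pw z (-(ε R).1)) * (g : C)⁻¹ ∈ (gR R : Subgroup C) := ⟨_, k1, rfl⟩
      rw [conj_mul_central (hzc _), hga'] at h1
      exact h1
  -- the directions
  have h10 : ¬ (1 : ZMod 3) = 0 := one_ne_zmod
  have haA : (a : C) ∉ A := by
    intro h1
    have h2 := (hind 1 0 (by rw [pw_one, pw_zero, mul_one]; exact h1)).1
    exact h10 h2
  have habA : (a : C) * b ∉ A := by
    intro h1
    have h2 := (hind 1 1 (by rw [pw_one, pw_one]; exact h1)).1
    exact h10 h2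
  have habP : (a : C) * b ∈ (P : Subgroup C) := mul_mem haC hbC
  obtain ⟨Xa, hXa, hXa9⟩ := exists_dir hA hAc (hexp _ haC) haA
  obtain ⟨Xb, hXb, hXb9⟩ := exists_dir hA hAc (hexp _ habP) habA
  have mkDir : ∀ {s : C} (hs : s ∈ (P : Subgroup C)) {X : Subgroup C}
      (hX : ∀ x, x ∈ X ↔ ∃ k : ZMod 3, ∃ c ∈ A, x = pw s k * c) (hX9 : Nat.card X = 9),
      X ≤ (P : Subgroup C) ∧ Nat.card X = 3 ^ 2 ∧ A ≤ X := by
    intro s hs X hX hX9
    refine ⟨?_, by rw [hX9]; norm_num, ?_⟩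
    · intro x hx
      obtain ⟨k, c, hc, rfl⟩ := (hX x).1 hx
      exact mul_mem (pw_mem hs k) (hAP hc)
    · intro c hc
      exact (hX c).2 ⟨0, c, hc, by rw [pw_zero, one_mul]⟩
  let Da : Dir 3 (P : Subgroup C) A := ⟨Xa, mkDir haC hXa hXa9⟩
  let Db : Dir 3 (P : Subgroup C) A := ⟨Xb, mkDir habP hXb hXb9⟩
  set w : ZMod 3 × ZMod 3 → ℕ := fun ij => wt W ((ε.symm ij : Pt 3 (P : Subgroup C) A) : Subgroup C) with hw
  have hline : ∀ (X : Dir 3 (P : Subgroup C) A) (ℓ : ZMod 3 × ZMod 3 → ZMod 3)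
      (hl : ∀ R R' : Pt 3 (P : Subgroup C) A, (R : Subgroup C) ⊓ X = (R' : Subgroup C) ⊓ X ↔ ℓ (ε R) = ℓ (ε R'))
      (ij₀ : ZMod 3 × ZMod 3),
      ∏ ij : ZMod 3 × ZMod 3, (if ℓ ij = ℓ ij₀ then w ij else 1) =
      1 + cX 3 (X : Subgroup C) * ∑ ij : ZMod 3 × ZMod 3, (if ℓ ij = ℓ ij₀ then w ij - 1 else 0) := by
    intro X ℓ hl ij₀
    have h1 := E.line X (ε.symm ij₀)
    rw [← finprod_comp_equiv ε.symm, ← finsum_comp_equiv ε.symm, finprod_eq_prod_of_fintype,
      finsum_eq_sum_of_fintype] at h1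
    have h2 : ∀ ij : ZMod 3 × ZMod 3, ((ε.symm ij : Pt 3 (P : Subgroup C) A) : Subgroup C) ⊓ X =
        ((ε.symm ij₀ : Pt 3 (P : Subgroup C) A) : Subgroup C) ⊓ X ↔ ℓ ij = ℓ ij₀ := by
      intro ij
      rw [hl, ε.apply_symm_apply, ε.apply_symm_apply]
    have h3 : ∏ ij : ZMod 3 × ZMod 3, (if ℓ ij = ℓ ij₀ then w ij else 1) =
        ∏ ij : ZMod 3 × ZMod 3, (if ((ε.symm ij : Pt 3 (P : Subgroup C) A) : Subgroup C) ⊓ X =
        ((ε.symm ij₀ : Pt 3 (P : Subgroup C) A) : Subgroup C) ⊓ X then wt W ((ε.symm ij : Pt 3 (P : Subgroup C) A) : Subgroup C) else 1) :=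
      Finset.prod_congr rfl fun ij _ => by
        by_cases h : ℓ ij = ℓ ij₀
        · rw [if_pos h, if_pos ((h2 ij).2 h)]
        · rw [if_neg h, if_neg (fun h' => h ((h2 ij).1 h'))]
    have h4 : ∑ ij : ZMod 3 × ZMod 3, (if ℓ ij = ℓ ij₀ then w ij - 1 else 0) =
        ∑ ij : ZMod 3 × ZMod 3, (if ((ε.symm ij : Pt 3 (P : Subgroup C) A) : Subgroup C) ⊓ X =
        ((ε.symm ij₀ : Pt 3 (P : Subgroup C) A) : Subgroup C) ⊓ X then wt W ((ε.symm ij : Pt 3 (P : Subgroup C) A) : Subgroup C) - 1 else 0) :=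
      Finset.sum_congr rfl fun ij _ => by
        by_cases h : ℓ ij = ℓ ij₀
        · rw [if_pos h, if_pos ((h2 ij).2 h)]
        · rw [if_neg h, if_neg (fun h' => h ((h2 ij).1 h'))]
    rw [h3, h4]
    exact h1
  have hall : ∀ ij, w ij = 1 := by
    refine seven_final w (fun ij => ?_) (fun i j => ?_) (c1 := cX 3 Xa) (c3 := cX 3 Xb) ?_ (fun i₀ => ?_) (fun i₀ => ?_)
    · have : Nonempty {l : W // ∀ x ∈ ((ε.symm ij : Pt 3 (P : Subgroup C) A) : Subgroup C), x • l = l} :=
        ⟨⟨1, fun x _ => smul_one x⟩⟩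
      exact Nat.card_pos
    · have h1 : ε.symm (-j, i) = gR (ε.symm (i, j)) := by
        rw [Equiv.symm_apply_eq, hεg, ε.apply_symm_apply]
      change wt W ((ε.symm (-j, i) : Pt 3 (P : Subgroup C) A) : Subgroup C) = _
      rw [h1, hwt]
    · exact even_cX hA hAc P hPc hcomm hexp h.three N hPN hAN f' hf' hk' hfa hft hta ht2 Xa
        (mkDir haC hXa hXa9).1 ((hXa _).2 ⟨1, 1, A.one_mem, by rw [pw_one, mul_one]⟩) (fun x hx => (hXa x).1 hx)
    · have h1 := hline Da (fun ij => ij.1) (fun R R' =>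
        inf_eq_iff hA hAP hPc hz hz1 hz3 haC Xa hXa R R' (hε R).1 (hε R').1) (i₀, 0)
      exact h1
    · have h1 := hline Db (fun ij => ij.1 + ij.2) (fun R R' => by
        have hab : ∀ R : Pt 3 (P : Subgroup C) A, (a : C) * b * pw z (-((ε R).1 + (ε R).2)) ∈ (R : Subgroup C) := by
          intro R
          have h2 := mul_mem (hε R).1 (hε R).2
          have h3 : (a : C) * b * pw z (-((ε R).1 + (ε R).2)) = a * pw z (-(ε R).1) * (b * pw z (-(ε R).2)) := by
            rw [neg_add, pw_add hz3, mul_assoc, mul_assoc, ← mul_assoc (b : C), hzc _ (b : C), mul_assoc]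
          rw [h3]
          exact h2
        exact inf_eq_iff hA hAP hPc hz hz1 hz3 habP Xb hXb R R' (hab R) (hab R')) (i₀, 0)
      simp only [add_zero] at h1
      exact h1
  obtain ⟨R, hR, -⟩ := E.noncol Da (ε.symm (0, 0))
  apply hR
  have h1 := hall (ε R)
  rw [hw] at h1
  simp only [ε.symm_apply_apply] at h1
  exact h1

end Cfsg.Agent.H117.PSq
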