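import Cfsg.Agent.H696.PSq.Defs
import Cfsg.Agent.H117.PSq.Arith

set_option autoImplicit false

open Cfsg Subgroup

namespace Cfsg.Agent.H117.PSq

open Cfsg.Agent.H696.PSq

universe u v

section fin

theorem seven_final (w : ZMod 3 × ZMod 3 → ℕ) (hw : ∀ ij, 1 ≤ w ij) (hg : ∀ i j, w (-j, i) = w (i, j)) {c1 c3 : ℕ}
    (hc : Even c1)
    (L1 : ∀ i₀ : ZMod 3, ∏ ij : ZMod 3 × ZMod 3, (if ij.1 = i₀ then w ij else 1) =
      1 + c1 * ∑ ij : ZMod 3 × ZMod 3, (if ij.1 = i₀ then w ij - 1 else 0))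
    (L3 : ∀ i₀ : ZMod 3, ∏ ij : ZMod 3 × ZMod 3, (if ij.1 + ij.2 = i₀ then w ij else 1) =
      1 + c3 * ∑ ij : ZMod 3 × ZMod 3, (if ij.1 + ij.2 = i₀ then w ij - 1 else 0)) :
    ∀ ij, w ij = 1 := by
  have g1 : w (0, 1) = w (1, 0) := hg 1 0
  have g2 : w (2, 0) = w (0, 1) := hg 0 1
  have g3 : w (0, 2) = w (2, 0) := hg 2 0
  have g4 : w (2, 1) = w (1, 1) := hg 1 1
  have g5 : w (2, 2) = w (2, 1) := hg 2 1
  have g6 : w (1, 2) = w (2, 2) := hg 2 2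
  have f1 : ∀ i₀ : ZMod 3, (Finset.univ.filter fun ij : ZMod 3 × ZMod 3 => ij.1 = i₀) =
      {(i₀, 0), (i₀, 1), (i₀, 2)} := by decide
  have f3 : ∀ i₀ : ZMod 3, (Finset.univ.filter fun ij : ZMod 3 × ZMod 3 => ij.1 + ij.2 = i₀) =
      {(i₀, 0), (i₀ - 1, 1), (i₀ - 2, 2)} := by decide
  have hne1 : ∀ i₀ : ZMod 3, ((i₀, 0) : ZMod 3 × ZMod 3) ∉ ({(i₀, 1), (i₀, 2)} : Finset (ZMod 3 × ZMod 3)) := by decide
  have hne2 : ∀ i₀ : ZMod 3, ((i₀, 1) : ZMod 3 × ZMod 3) ≠ (i₀, 2) := by decide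
  have hne3 : ∀ i₀ : ZMod 3, ((i₀, 0) : ZMod 3 × ZMod 3) ∉
      ({(i₀ - 1, 1), (i₀ - 2, 2)} : Finset (ZMod 3 × ZMod 3)) := by decide
  have hne4 : ∀ i₀ : ZMod 3, ((i₀ - 1, 1) : ZMod 3 × ZMod 3) ≠ (i₀ - 2, 2) := by decide
  have K1 : ∀ i₀ : ZMod 3, w (i₀, 0) * (w (i₀, 1) * w (i₀, 2)) =
      1 + c1 * ((w (i₀, 0) - 1) + ((w (i₀, 1) - 1) + (w (i₀, 2) - 1))) := by
    intro i₀
    have h := L1 i₀
    rw [← Finset.prod_filter, ← Finset.sum_filter, f1, Finset.prod_insert (hne1 i₀), Finset.prod_pair (hne2 i₀),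
      Finset.sum_insert (hne1 i₀), Finset.sum_pair (hne2 i₀)] at h
    exact h
  have K3 : ∀ i₀ : ZMod 3, w (i₀, 0) * (w (i₀ - 1, 1) * w (i₀ - 2, 2)) =
      1 + c3 * ((w (i₀, 0) - 1) + ((w (i₀ - 1, 1) - 1) + (w (i₀ - 2, 2) - 1))) := by
    intro i₀
    have h := L3 i₀
    rw [← Finset.prod_filter, ← Finset.sum_filter, f3, Finset.prod_insert (hne3 i₀), Finset.prod_pair (hne4 i₀),
      Finset.sum_insert (hne3 i₀), Finset.sum_pair (hne4 i₀)] at h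
    exact h
  have a1 := K1 0
  have a2 := K1 1
  have a3 := K3 0
  have a4 := K3 1
  have s1 : (0 - 1 : ZMod 3) = 2 := by decide
  have s2 : (0 - 2 : ZMod 3) = 1 := by decide
  have s3 : (1 - 1 : ZMod 3) = 0 := by decide
  have s4 : (1 - 2 : ZMod 3) = 2 := by decide
  rw [s1, s2] at a3
  rw [s3, s4] at a4
  have e : w (0, 0) = 1 ∧ w (1, 0) = 1 ∧ w (1, 1) = 1 := by
    refine arith_seven (c1 := c1) (c3 := c3) (hw _) (hw _) (hw _) hc ?_ ?_ ?_ ?_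
    · rw [g3, g2, g1] at a1
      rw [pow_two, a1]; ring
    · rw [g6, g5, g4] at a2
      rw [pow_two, a2]; ring
    · rw [g6, g5, g4] at a3
      rw [pow_two, a3]; ring
    · rw [g1, g5, g4] at a4
      rw [pow_two, mul_comm, mul_assoc, a4]; ring
  obtain ⟨e0, e1, e2⟩ := e
  have h9 : ∀ ij : ZMod 3 × ZMod 3, ij = (0, 0) ∨ ij = (1, 0) ∨ ij = (0, 1) ∨ ij = (2, 0) ∨ ij = (0, 2) ∨ ij = (1, 1) ∨
      ij = (2, 1) ∨ ij = (2, 2) ∨ ij = (1, 2) := by decide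
  intro ij
  rcases h9 ij with rfl | rfl | rfl | rfl | rfl | rfl | rfl | rfl | rfl
  · exact e0
  · exact e1
  · rw [g1, e1]
  · rw [g2, g1, e1]
  · rw [g3, g2, g1, e1]
  · exact e2
  · rw [g4, e2]
  · rw [g5, g4, e2]
  · rw [g6, g5, g4, e2]

end fin

end Cfsg.Agent.H117.PSq
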