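import Cfsg.Agent.H117.PSq.SevenA

set_option autoImplicit false

open Cfsg Subgroup

namespace Cfsg.Agent.H117.PSq

open Cfsg.Agent.H696.PSq

universe u v

/-- powers with exponents in `ZMod 3` -/
def pw {C : Type*} [Group C] (c : C) (t : ZMod 3) : C := c ^ (t.val : ℕ)

section pw

variable {C : Type*} [Group C] {c : C}

theorem pow_mod (h : c ^ 3 = 1) (n : ℕ) : c ^ (n % 3) = c ^ n := by
  conv_rhs => rw [← Nat.mod_add_div n 3, pow_add, pow_mul, h, one_pow, mul_one]

theorem pw_add (h : c ^ 3 = 1) (s t : ZMod 3) : pw c (s + t) = pw c s * pw c t := by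
  unfold pw
  rw [ZMod.val_add, pow_mod h, pow_add]

theorem pw_zero : pw c 0 = 1 := by
  unfold pw
  rw [ZMod.val_zero, pow_zero]

theorem pw_one : pw c 1 = c := by
  unfold pw
  have : (1 : ZMod 3).val = 1 := by decide
  rw [this, pow_one]

theorem pw_neg (h : c ^ 3 = 1) (t : ZMod 3) : pw c (-t) = (pw c t)⁻¹ := by
  rw [eq_inv_iff_mul_eq_one, ← pw_add h, neg_add_cancel, pw_zero]

theorem pow_eq_pw (h : c ^ 3 = 1) (n : ℕ) : c ^ n = pw c (n : ZMod 3) := by
  unfold pw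
  rw [ZMod.val_natCast, pow_mod h]

theorem pw_inj (h : c ^ 3 = 1) (h1 : c ≠ 1) {s t : ZMod 3} (he : pw c s = pw c t) : s = t := by
  have h2 : pw c (s - t) = 1 := by
    rw [sub_eq_add_neg, pw_add h, pw_neg h, he, mul_inv_cancel]
  have hx3 : ∀ x : ZMod 3, x = 0 ∨ x = 1 ∨ x = 2 := by decide
  have h3 : ∀ x : ZMod 3, pw c x = 1 → x = 0 := by
    intro x hx
    rcases hx3 x with rfl | rfl | rfl
    · rfl
    · rw [pw_one] at hx
      exact absurd hx h1
    · exfalso
      apply h1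
      have h4 : pw c (1 + 1) = 1 := by
        have : (1 + 1 : ZMod 3) = 2 := by decide
        rw [this]; exact hx
      rw [pw_add h, pw_one] at h4
      calc c = c * c * c := by rw [h4, one_mul]
        _ = c ^ 3 := by rw [pow_succ, pow_two]
        _ = 1 := h
  exact sub_eq_zero.1 (h3 _ h2)

theorem pw_mem {R : Subgroup C} (h : c ∈ R) (t : ZMod 3) : pw c t ∈ R := R.pow_mem h _

end pw

section coords

variable {C : Type u} [Group C] [Finite C] {A P : Subgroup C}

/-- the coordinates of the elements relative to a point -/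
theorem exists_tau (hAP : A ≤ P) (hPc : Nat.card P = 27) {z : C}
    (hz : z ∈ A) (hz1 : z ≠ 1) (hz3 : z ^ 3 = 1) (R : Pt 3 P A) {s : C} (hs : s ∈ P) :
    ∃! t : ZMod 3, s * pw z (-t) ∈ (R : Subgroup C) := by
  obtain ⟨R, hRP, hR9, hRA⟩ := R
  change ∃! t : ZMod 3, s * pw z (-t) ∈ R
  have hinj : ∀ r ∈ R, ∀ r' ∈ R, ∀ t t' : ZMod 3, r * pw z t = r' * pw z t' → r = r' ∧ t = t' := by
    intro r hr r' hr' t t' he
    have h1 : r'⁻¹ * r = pw z (t' - t) := by
      rw [sub_eq_add_neg, pw_add hz3, pw_neg hz3, inv_mul_eq_iff_eq_mul, ← mul_assoc, ← he, mul_inv_cancel_right]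
    have h2 : r'⁻¹ * r ∈ R ⊓ A := ⟨R.mul_mem (R.inv_mem hr') hr, by rw [h1]; exact pw_mem hz _⟩
    rw [hRA, mem_bot] at h2
    have h3 : r = r' := by
      rw [inv_mul_eq_one] at h2
      exact h2.symm
    refine ⟨h3, ?_⟩
    rw [h3] at he
    exact pw_inj hz3 hz1 (mul_left_cancel he)
  let F : R × ZMod 3 → P := fun x => ⟨x.1 * pw z x.2, P.mul_mem (hRP x.1.2) (hAP (pw_mem hz _))⟩
  have hF : Function.Bijective F := by
    rw [Nat.bijective_iff_injective_and_card]
    constructor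
    · rintro ⟨r, t⟩ ⟨r', t'⟩ he
      obtain ⟨h1, h2⟩ := hinj r r.2 r' r'.2 t t' (congrArg Subtype.val he)
      exact Prod.ext (Subtype.ext h1) h2
    · rw [Nat.card_prod, hPc]
      have h3 : Nat.card (ZMod 3) = 3 := Nat.card_zmod 3
      rw [h3]
      have h9 : Nat.card R = 9 := by rw [hR9]; norm_num
      rw [h9]
  obtain ⟨⟨r, t⟩, hrt⟩ := hF.2 ⟨s, hs⟩
  have hrt' : (r : C) * pw z t = s := congrArg Subtype.val hrt
  refine ⟨t, ?_, ?_⟩
  · change s * pw z (-t) ∈ R
    rw [← hrt', pw_neg hz3, mul_inv_cancel_right]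
    exact r.2
  · intro t' ht'
    change s * pw z (-t') ∈ R at ht'
    have h1 := hinj r r.2 _ ht' t t' (by
      rw [hrt', mul_assoc, ← pw_add hz3, neg_add_cancel, pw_zero, mul_one])
    exact h1.2.symm

/-- the equivalence between the points and `ZMod 3 × ZMod 3` -/
theorem exists_equiv (hA : A ≤ center C) (hAP : A ≤ P) (hPc : Nat.card P = 27)
    (hcomm : ∀ x ∈ P, ∀ y ∈ P, x * y = y * x) (hexp : ∀ x ∈ P, x ^ 3 = 1) {z : C}
    (hz : z ∈ A) (hz1 : z ≠ 1) {a b : C} (ha : a ∈ P) (hb : b ∈ P)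
    (hgen : ∀ x ∈ P, ∃ i j : ZMod 3, ∃ c ∈ A, x = pw a i * pw b j * c)
    (hind : ∀ i j : ZMod 3, pw a i * pw b j ∈ A → i = 0 ∧ j = 0) :
    ∃ ε : Pt 3 P A ≃ ZMod 3 × ZMod 3, ∀ R : Pt 3 P A, a * pw z (-(ε R).1) ∈ (R : Subgroup C) ∧
      b * pw z (-(ε R).2) ∈ (R : Subgroup C) := by
  have hz3 : z ^ 3 = 1 := hexp z (hAP hz)
  have hzc : ∀ (t : ZMod 3) (x : C), x * pw z t = pw z t * x := fun t x =>
    mem_center_iff.1 (hA (pw_mem hz t)) x
  have ea := fun R : Pt 3 P A => exists_tau hAP hPc hz hz1 hz3 R ha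
  have eb := fun R : Pt 3 P A => exists_tau hAP hPc hz hz1 hz3 R hb
  choose τa hτa hτa' using ea
  choose τb hτb hτb' using eb
  simp only at hτa hτb
  let ε₀ : Pt 3 P A → ZMod 3 × ZMod 3 := fun R => (τa R, τb R)
  -- powers of the generators of a point
  have key : ∀ (i j : ZMod 3) (k l : ZMod 3), pw (a * pw z (-i)) k * pw (b * pw z (-j)) l =
      pw a k * pw b l * pw z (-(i * k + j * l)) := by
    intro i j k l
    have h1 : ∀ (x : C) (s t : ZMod 3), pw (x * pw z s) t = pw x t * pw z (s * t) := by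
      intro x s t
      unfold pw
      have hc : Commute x (z ^ s.val) := hzc s x
      rw [hc.mul_pow, ← pow_mul, ZMod.val_mul, pow_mod hz3]
    rw [h1, h1, mul_assoc, ← mul_assoc (pw z _), ← hzc, mul_assoc, ← pw_add hz3, ← mul_assoc]
    congr 2
    ring
  have hinj : Function.Injective ε₀ := by
    have hle : ∀ R R' : Pt 3 P A, ε₀ R = ε₀ R' → (R : Subgroup C) ≤ R' := by
      intro R R' he x hx
      have h1 : τa R = τa R' := congrArg Prod.fst he
      have h2 : τb R = τb R' := congrArg Prod.snd he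
      obtain ⟨k, l, c, hc, hxe⟩ := hgen x (R.2.1 hx)
      have e1 : ∃ c' ∈ A, x = pw (a * pw z (-(τa R))) k * pw (b * pw z (-(τb R))) l * c' := by
        refine ⟨pw z (τa R * k + τb R * l) * c, A.mul_mem (pw_mem hz _) hc, ?_⟩
        rw [key, hxe, mul_assoc (pw a k * pw b l), ← mul_assoc (pw z _), ← pw_add hz3, neg_add_cancel, pw_zero, one_mul]
      obtain ⟨c', hc', hx'⟩ := e1
      have h3 : c' ∈ (R : Subgroup C) ⊓ A := by
        refine ⟨?_, hc'⟩
        have h4 : pw (a * pw z (-(τa R))) k * pw (b * pw z (-(τb R))) l ∈ (R : Subgroup C) :=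
          mul_mem (pw_mem (hτa R) k) (pw_mem (hτb R) l)
        have h5 := mul_mem (inv_mem h4) hx
        rwa [hx', inv_mul_cancel_left] at h5
      rw [R.2.2.2, mem_bot] at h3
      rw [hx', h3, mul_one, h1, h2]
      exact mul_mem (pw_mem (hτa R') k) (pw_mem (hτb R') l)
    intro R R' he
    exact Subtype.ext (le_antisymm (hle R R' he) (hle R' R he.symm))
  have hsurj : Function.Surjective ε₀ := by
    rintro ⟨i, j⟩
    set a' := a * pw z (-i) with ha'
    set b' := b * pw z (-j) with hb'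
    have ha'P : a' ∈ P := P.mul_mem ha (hAP (pw_mem hz _))
    have hb'P : b' ∈ P := P.mul_mem hb (hAP (pw_mem hz _))
    have ha3 : a' ^ 3 = 1 := hexp _ ha'P
    have hb3 : b' ^ 3 = 1 := hexp _ hb'P
    let R : Subgroup C :=
      { carrier := {x | ∃ k l : ZMod 3, x = pw a' k * pw b' l}
        mul_mem' := by
          rintro _ _ ⟨k, l, rfl⟩ ⟨k', l', rfl⟩
          refine ⟨k + k', l + l', ?_⟩
          rw [pw_add ha3, pw_add hb3, mul_assoc, mul_assoc]
          congr 1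
          rw [← mul_assoc, ← mul_assoc, hcomm _ (pw_mem hb'P l) _ (pw_mem ha'P k')]
        one_mem' := ⟨0, 0, by rw [pw_zero, pw_zero, mul_one]⟩
        inv_mem' := by
          rintro _ ⟨k, l, rfl⟩
          refine ⟨-k, -l, ?_⟩
          rw [pw_neg ha3, pw_neg hb3, mul_inv_rev, hcomm _ (P.inv_mem (pw_mem hb'P l)) _ (P.inv_mem (pw_mem ha'P k))] }
    have hRi : ∀ k l k' l' : ZMod 3, pw a' k * pw b' l = pw a' k' * pw b' l' → k = k' ∧ l = l' := by
      intro k l k' l' he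
      have h1 : pw a' (k - k') * pw b' (l - l') = 1 := by
        rw [sub_eq_add_neg, sub_eq_add_neg, pw_add ha3, pw_add hb3, pw_neg ha3, pw_neg hb3]
        rw [hcomm _ (pw_mem ha'P k) _ (P.inv_mem (pw_mem ha'P k')), mul_assoc, ← mul_assoc (pw a' k), he]
        group
      rw [key] at h1
      have h2 : pw a (k - k') * pw b (l - l') ∈ A := by
        have h3 : pw a (k - k') * pw b (l - l') = pw z (i * (k - k') + j * (l - l')) := by
          rw [eq_comm, ← one_mul (pw z _), ← h1, mul_assoc, ← pw_add hz3, neg_add_cancel, pw_zero, mul_one]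
        rw [h3]
        exact pw_mem hz _
      obtain ⟨h3, h4⟩ := hind _ _ h2
      exact ⟨sub_eq_zero.1 h3, sub_eq_zero.1 h4⟩
    have hR9 : Nat.card R = 9 := by
      have e : ZMod 3 × ZMod 3 ≃ R := Equiv.ofBijective (fun x => ⟨pw a' x.1 * pw b' x.2, ⟨x.1, x.2, rfl⟩⟩) (by
        constructor
        · rintro ⟨k, l⟩ ⟨k', l'⟩ he
          obtain ⟨h1, h2⟩ := hRi _ _ _ _ (congrArg Subtype.val he)
          exact Prod.ext h1 h2
        · rintro ⟨x, k, l, rfl⟩
          exact ⟨(k, l), rfl⟩)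
      rw [← Nat.card_congr e, Nat.card_prod, Nat.card_zmod]
    have hRA : R ⊓ A = ⊥ := by
      rw [eq_bot_iff]
      rintro x ⟨⟨k, l, rfl⟩, hx⟩
      have h2 : pw a k * pw b l ∈ A := by
        have h3 : pw a' k * pw b' l = pw a k * pw b l * pw z (-(i * k + j * l)) := key i j k l
        rw [h3] at hx
        have := A.mul_mem hx (A.inv_mem (pw_mem hz (-(i * k + j * l))))
        rwa [mul_inv_cancel_right] at this
      obtain ⟨h3, h4⟩ := hind _ _ h2
      rw [mem_bot, h3, h4, pw_zero, pw_zero, mul_one]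
    have hRP : R ≤ P := by
      rintro x ⟨k, l, rfl⟩
      exact P.mul_mem (pw_mem ha'P k) (pw_mem hb'P l)
    have hmema : a' ∈ R := ⟨1, 0, by rw [pw_one, pw_zero, mul_one]⟩
    have hmemb : b' ∈ R := ⟨0, 1, by rw [pw_one, pw_zero, one_mul]⟩
    refine ⟨⟨R, hRP, by rw [hR9]; norm_num, hRA⟩, ?_⟩
    refine Prod.ext ?_ ?_
    · exact (hτa' _ i hmema).symm
    · exact (hτb' _ j hmemb).symm
  exact ⟨Equiv.ofBijective ε₀ ⟨hinj, hsurj⟩, fun R => ⟨hτa R, hτb R⟩⟩

/-- the lines of a direction -/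
theorem inf_eq_iff (hA : A ≤ center C) (hAP : A ≤ P) (hPc : Nat.card P = 27) {z : C}
    (hz : z ∈ A) (hz1 : z ≠ 1) (hz3 : z ^ 3 = 1) {s : C} (hs : s ∈ P)
    (X : Subgroup C) (hX : ∀ x, x ∈ X ↔ ∃ k : ZMod 3, ∃ c ∈ A, x = pw s k * c)
    (R R' : Pt 3 P A) {t t' : ZMod 3} (ht : s * pw z (-t) ∈ (R : Subgroup C))
    (ht' : s * pw z (-t') ∈ (R' : Subgroup C)) :
    (R : Subgroup C) ⊓ X = (R' : Subgroup C) ⊓ X ↔ t = t' := by
  have hzc : ∀ (t : ZMod 3) (x : C), x * pw z t = pw z t * x := fun t x =>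
    mem_center_iff.1 (hA (pw_mem hz t)) x
  have hsX : ∀ t, s * pw z t ∈ X := fun t => (hX _).2 ⟨1, pw z t, pw_mem hz t, by rw [pw_one]⟩
  constructor
  · intro h
    have h1 : s * pw z (-t) ∈ (R' : Subgroup C) := by
      have : s * pw z (-t) ∈ (R : Subgroup C) ⊓ X := ⟨ht, hsX _⟩
      rw [h] at this
      exact this.1
    exact (exists_tau hAP hPc hz hz1 hz3 R' hs).unique h1 ht'
  · rintro rfl
    have hle : ∀ R R' : Pt 3 P A, s * pw z (-t) ∈ (R : Subgroup C) → s * pw z (-t) ∈ (R' : Subgroup C) →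
        (R : Subgroup C) ⊓ X ≤ (R' : Subgroup C) ⊓ X := by
      rintro R R' h h' x ⟨hx, hxX⟩
      refine ⟨?_, hxX⟩
      obtain ⟨k, c, hc, rfl⟩ := (hX x).1 hxX
      have h1 : pw (s * pw z (-t)) k = pw s k * pw z (-t * k) := by
        unfold pw
        have hc : Commute s (z ^ (-t).val) := hzc (-t) s
        rw [hc.mul_pow, ← pow_mul, ZMod.val_mul, pow_mod hz3]
      have h2 : pw s k * c = pw (s * pw z (-t)) k * (pw z (t * k) * c) := by
        rw [h1, mul_assoc, ← mul_assoc (pw z _), ← pw_add hz3, neg_mul, neg_add_cancel, pw_zero, one_mul]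
      have h3 : pw z (t * k) * c ∈ (R : Subgroup C) ⊓ A := by
        refine ⟨?_, A.mul_mem (pw_mem hz _) hc⟩
        have h5 := mul_mem (inv_mem (pw_mem h k)) hx
        change (pw (s * pw z (-t)) k)⁻¹ * (pw s k * c) ∈ (R : Subgroup C) at h5
        rwa [h2, inv_mul_cancel_left] at h5
      rw [R.2.2.2, mem_bot] at h3
      rw [h2, h3, mul_one]
      exact pw_mem h' k
    exact le_antisymm (hle R R' ht ht') (hle R' R ht' ht)

end coords

end Cfsg.Agent.H117.PSq
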