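import Cfsg.Agent.H117.PSq.SevenB

set_option autoImplicit false

open Cfsg Subgroup

namespace Cfsg.Agent.H117.PSq

open Cfsg.Agent.H696.PSq Equiv

universe u v

/-! ### permutations -/

/-- `(0 1 2)` -/
def pa : Perm (Fin 7) := ⟨![1, 2, 0, 3, 4, 5, 6], ![2, 0, 1, 3, 4, 5, 6], by decide, by decide⟩

/-- `(3 4 5)` -/
def pb : Perm (Fin 7) := ⟨![0, 1, 2, 4, 5, 3, 6], ![0, 1, 2, 5, 3, 4, 6], by decide, by decide⟩

/-- `(0 3 1 4)(2 5)` -/
def ph : Perm (Fin 7) := ⟨![3, 4, 5, 1, 0, 2, 6], ![4, 3, 5, 0, 1, 2, 6], by decide, by decide⟩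

/-- `(3 4)(5 6)` -/
def pv : Perm (Fin 7) := ⟨![0, 1, 2, 4, 3, 6, 5], ![0, 1, 2, 4, 3, 6, 5], by decide, by decide⟩

/-- `(0 1 2)` -/
def qa : alternatingGroup (Fin 7) := ⟨pa, Perm.mem_alternatingGroup.2 (by decide)⟩

/-- `(3 4 5)` -/
def qb : alternatingGroup (Fin 7) := ⟨pb, Perm.mem_alternatingGroup.2 (by decide)⟩

/-- `(0 3 1 4)(2 5)` -/
def qh : alternatingGroup (Fin 7) := ⟨ph, Perm.mem_alternatingGroup.2 (by decide)⟩

/-- `(3 4)(5 6)` -/
def qv : alternatingGroup (Fin 7) := ⟨pv, Perm.mem_alternatingGroup.2 (by decide)⟩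

theorem qa_cube : qa ^ 3 = 1 := Subtype.ext (by decide)
theorem qb_cube : qb ^ 3 = 1 := Subtype.ext (by decide)
theorem qa_ne : qa ≠ 1 := fun h => absurd (congrArg Subtype.val h) (by decide)
theorem qab : qa * qb = qb * qa := Subtype.ext (by decide)
theorem qh_a : qh * qa * qh⁻¹ = qb := Subtype.ext (by decide)
theorem qh_b : qh * qb * qh⁻¹ = qa⁻¹ := Subtype.ext (by decide)
theorem qh_four : qh ^ 4 = 1 := Subtype.ext (by decide)
theorem qva : qv * qa = qa * qv := Subtype.ext (by decide)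
theorem qv_sq : qv ^ 2 = 1 := Subtype.ext (by decide)

theorem qab_ind : ∀ i j : ZMod 3, pw qa i * pw qb j = 1 → i = 0 ∧ j = 0 := by
  have h : ∀ i j : ZMod 3, pa ^ i.val * pb ^ j.val = 1 → i = 0 ∧ j = 0 := by decide
  intro i j hij
  exact h i j (congrArg Subtype.val hij)

set_option maxRecDepth 100000 in
theorem centralizer_pa : ∀ q : Perm (Fin 7), q * pa = pa * q → q ^ 3 = 1 →
    q * (pv * q * pv⁻¹) = (pv * q * pv⁻¹) * q → q = 1 ∨ q = pa ∨ q = pa * pa := by decide +kernel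

/-- the subgroup generated by `(0 1 2)`, `(3 4 5)` -/
def P₀ : Subgroup (alternatingGroup (Fin 7)) where
  carrier := {x | ∃ k l : ZMod 3, x = pw qa k * pw qb l}
  mul_mem' := by
    rintro _ _ ⟨k, l, rfl⟩ ⟨k', l', rfl⟩
    refine ⟨k + k', l + l', ?_⟩
    have hc : Commute (pw qb l) (pw qa k') := (show Commute qa qb from qab).symm.pow_pow _ _
    rw [pw_add qa_cube, pw_add qb_cube, mul_assoc, mul_assoc, ← mul_assoc (pw qb l), hc.eq, mul_assoc]
  one_mem' := ⟨0, 0, by rw [pw_zero, pw_zero, mul_one]⟩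
  inv_mem' := by
    rintro _ ⟨k, l, rfl⟩
    refine ⟨-k, -l, ?_⟩
    have hc : Commute (pw qb l)⁻¹ (pw qa k)⁻¹ := ((show Commute qa qb from qab).symm.pow_pow _ _).inv_inv
    rw [pw_neg qa_cube, pw_neg qb_cube, mul_inv_rev, hc.eq]

theorem mem_P₀ {x : alternatingGroup (Fin 7)} : x ∈ P₀ ↔ ∃ k l : ZMod 3, x = pw qa k * pw qb l := Iff.rfl

theorem comm_P₀ : ∀ x ∈ P₀, ∀ y ∈ P₀, x * y = y * x := by
  rintro _ ⟨k, l, rfl⟩ _ ⟨k', l', rfl⟩
  have c0 : Commute qa qb := qab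
  have c1 : Commute (pw qa k) (pw qa k') := (Commute.refl qa).pow_pow _ _
  have c2 : Commute (pw qa k) (pw qb l') := c0.pow_pow _ _
  have c3 : Commute (pw qb l) (pw qa k') := c0.symm.pow_pow _ _
  have c4 : Commute (pw qb l) (pw qb l') := (Commute.refl qb).pow_pow _ _
  exact ((c1.mul_right c2).mul_left (c3.mul_right c4)).eq

theorem card_P₀ : Nat.card P₀ = 9 := by
  have e : ZMod 3 × ZMod 3 ≃ P₀ := Equiv.ofBijective (fun x => ⟨pw qa x.1 * pw qb x.2, ⟨x.1, x.2, rfl⟩⟩) (by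
    constructor
    · rintro ⟨k, l⟩ ⟨k', l'⟩ he
      have h1 : pw qa k * pw qb l = pw qa k' * pw qb l' := congrArg Subtype.val he
      have c0 : Commute qa qb := qab
      have h2 : pw qa (k - k') * pw qb (l - l') = 1 := by
        rw [sub_eq_add_neg, sub_eq_add_neg, pw_add qa_cube, pw_add qb_cube, pw_neg qa_cube, pw_neg qb_cube]
        have c1 : Commute (pw qa k')⁻¹ (pw qb l) := (c0.pow_pow _ _).inv_left
        have c2 : Commute (pw qa k')⁻¹ (pw qb l') := (c0.pow_pow _ _).inv_left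
        have c3 : Commute (pw qa k')⁻¹ (pw qa k') := (Commute.refl _).inv_left
        calc pw qa k * (pw qa k')⁻¹ * (pw qb l * (pw qb l')⁻¹)
            = pw qa k * ((pw qa k')⁻¹ * pw qb l) * (pw qb l')⁻¹ := by group
          _ = pw qa k * (pw qb l * (pw qa k')⁻¹) * (pw qb l')⁻¹ := by rw [c1.eq]
          _ = (pw qa k * pw qb l) * (pw qa k')⁻¹ * (pw qb l')⁻¹ := by group
          _ = (pw qa k' * pw qb l') * (pw qa k')⁻¹ * (pw qb l')⁻¹ := by rw [h1]
          _ = pw qa k' * (pw qb l' * (pw qa k')⁻¹) * (pw qb l')⁻¹ := by group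
          _ = pw qa k' * ((pw qa k')⁻¹ * pw qb l') * (pw qb l')⁻¹ := by rw [c2.eq]
          _ = 1 := by group
      obtain ⟨h3, h4⟩ := qab_ind _ _ h2
      exact Prod.ext (sub_eq_zero.1 h3) (sub_eq_zero.1 h4)
    · rintro ⟨x, k, l, rfl⟩
      exact ⟨(k, l), rfl⟩)
  rw [← Nat.card_congr e, Nat.card_prod, Nat.card_zmod]

theorem card_A7 : Nat.card (alternatingGroup (Fin 7)) = 2520 := by
  have h := nat_card_alternatingGroup (α := Fin 7)
  rw [h, Nat.card_fin]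
  decide

theorem fact_A7 : (Nat.card (alternatingGroup (Fin 7))).factorization 3 = 2 := by
  rw [card_A7, Nat.factorization_def _ Nat.prime_three]
  have h : (2520 : ℕ) = 3 ^ 2 * 280 := by norm_num
  have : Fact (Nat.Prime 3) := ⟨Nat.prime_three⟩
  rw [h, padicValNat.mul (by norm_num) (by norm_num), padicValNat.prime_pow,
    padicValNat.eq_zero_of_not_dvd (by norm_num)]

/-! ### conjugacy -/

theorem conj_into {G : Type*} [Group G] [Finite G] {p : ℕ} [Fact p.Prime] (M X Y : Subgroup G) (hX : X ≤ M)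
    (hY : Y ≤ M) (cX : Nat.card X = p ^ (Nat.card M).factorization p)
    (cY : Nat.card Y = p ^ (Nat.card M).factorization p) : ∃ m ∈ M, ∀ x ∈ X, m * x * m⁻¹ ∈ Y := by
  have hc : ∀ Z : Subgroup G, Z ≤ M → Nat.card (Z.subgroupOf M) = Nat.card Z := fun Z hZ =>
    Nat.card_congr (subgroupOfEquivOfLe hZ).toEquiv
  let Q₁ : Sylow p M := Sylow.ofCard (X.subgroupOf M) (by rw [hc X hX, cX])
  let Q₂ : Sylow p M := Sylow.ofCard (Y.subgroupOf M) (by rw [hc Y hY, cY])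
  obtain ⟨m, hm⟩ := MulAction.exists_smul_eq M Q₁ Q₂
  refine ⟨m, m.2, fun x hx => ?_⟩
  have h1 : (⟨x, hX hx⟩ : M) ∈ Q₁ := hx
  have h2 : m * ⟨x, hX hx⟩ * m⁻¹ ∈ Q₂ := by
    rw [← hm]
    change _ ∈ ((m • Q₁ : Sylow p M) : Subgroup M)
    rw [Sylow.coe_subgroup_smul]
    exact ⟨⟨x, hX hx⟩, h1, rfl⟩
  exact h2

theorem frattini {G : Type*} [Group G] [Finite G] {p : ℕ} [Fact p.Prime] (M X : Subgroup G) (hX : X ≤ M)
    (cX : Nat.card X = p ^ (Nat.card M).factorization p) (t : G) (ht : ∀ x ∈ M, t * x * t⁻¹ ∈ M) :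
    ∃ m ∈ M, ∀ x ∈ X, (m * t) * x * (m * t)⁻¹ ∈ X := by
  have h1 : Nat.card (X.map (MulAut.conj t).toMonoidHom) = Nat.card X :=
    (Nat.card_congr (X.equivMapOfInjective _ (MulAut.conj t).injective).toEquiv).symm
  have h2 : X.map (MulAut.conj t).toMonoidHom ≤ M := by
    rintro _ ⟨x, hx, rfl⟩
    exact ht x (hX hx)
  obtain ⟨m, hm, h3⟩ := conj_into (p := p) M _ X h2 hX (by rw [h1, cX]) cX
  refine ⟨m, hm, fun x hx => ?_⟩
  have h4 := h3 _ ⟨x, hx, rfl⟩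
  have h5 : (m * t) * x * (m * t)⁻¹ = m * ((MulAut.conj t).toMonoidHom x) * m⁻¹ := by
    change _ = m * (t * x * t⁻¹) * m⁻¹
    group
  rw [h5]
  exact h4

end Cfsg.Agent.H117.PSq
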