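import Cfsg.Agent.H117.PSq.SevenD

set_option autoImplicit false
set_option linter.unusedSectionVars false

open Cfsg Subgroup

namespace Cfsg.Agent.H117.PSq

open Cfsg.Agent.H696.PSq Equiv

universe u v

section

variable {G : Type u} [Group G] [Finite G]

instance three_prime : Fact (Nat.Prime 3) := ⟨Nat.prime_three⟩

theorem conj_mul_central {G : Type*} [Group G] {c : G} (hc : ∀ y : G, y * c = c * y) (y x : G) :
    y * (x * c) * y⁻¹ = (y * x * y⁻¹) * c := by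
  rw [mul_assoc (y * x), hc y⁻¹, mul_assoc y, mul_assoc y, mul_assoc x]

/-- moving `f(P)` into `P₀` -/
theorem exists_conj (f : G →* alternatingGroup (Fin 7)) (hf : Function.Surjective f) (hk : ¬ 9 ∣ Nat.card f.ker)
    {A P : Subgroup G} (hA : A ≤ center G) (hAc : Nat.card A = 3) (hAP : A ≤ P) (hPc : Nat.card P = 27) :
    ∃ f' : G →* alternatingGroup (Fin 7), Function.Surjective f' ∧ ¬ 9 ∣ Nat.card f'.ker ∧ ∀ x ∈ P, f' x ∈ P₀ := by
  obtain ⟨y, -, hy⟩ := conj_into (p := 3) ⊤ (P.map f) P₀ le_top le_top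
    (by rw [card_map f hf hk hA hAc hAP hPc, card_top, fact_A7]; norm_num)
    (by rw [card_P₀, card_top, fact_A7]; norm_num)
  refine ⟨(MulAut.conj y).toMonoidHom.comp f, (MulAut.conj y).surjective.comp hf, ?_, ?_⟩
  · have h1 : ((MulAut.conj y).toMonoidHom.comp f).ker = f.ker := by
      ext x
      rw [MonoidHom.mem_ker, MonoidHom.mem_ker]
      change (MulAut.conj y) (f x) = 1 ↔ _
      rw [map_eq_one_iff _ (MulAut.conj y).injective]
    rw [h1]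
    exact hk
  · intro x hx
    exact hy (f x) ⟨x, hx, rfl⟩

/-- the `3`-part of the preimage of `⟨(0 1 2)⟩` -/
theorem fact_comap (f : G →* alternatingGroup (Fin 7)) (hf : Function.Surjective f) (hk : ¬ 9 ∣ Nat.card f.ker)
    {A : Subgroup G} (hA : A ≤ center G) (hAc : Nat.card A = 3) :
    (Nat.card ((zpowers qa).comap f)).factorization 3 = 2 := by
  set M := (zpowers qa).comap f with hM
  have hord : orderOf qa = 3 := orderOf_eq_prime qa_cube qa_ne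
  have hMc : Nat.card M = 3 * Nat.card f.ker := by
    have h1 := Subgroup.relIndex_ker M f
    rw [hM, map_comap_eq_self_of_surjective hf, Nat.card_zpowers, hord] at h1
    have h2 : f.ker ≤ M := by
      intro x hx
      rw [hM, mem_comap, hx]
      exact one_mem _
    have h3 := Subgroup.relIndex_mul_index h2
    have h4 := f.ker.card_mul_index
    have h5 := M.card_mul_index
    rw [← hM] at h1
    rw [h1] at h3
    have h6 : 0 < M.index := Nat.pos_of_ne_zero index_ne_zero_of_finite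
    apply Nat.eq_of_mul_eq_mul_right h6
    rw [h5, ← h4, ← h3]
    ring
  have hk3 : 3 ∣ Nat.card f.ker := hAc ▸ card_dvd_of_le (le_ker f hf hA)
  · apply fact_eq Nat.prime_three Nat.card_pos.ne'
    · rw [hMc, pow_two]
      exact Nat.mul_dvd_mul_left 3 hk3
    · rw [hMc, pow_succ', Nat.mul_dvd_mul_iff_left (by norm_num)]
      exact hk

variable (f : G →* alternatingGroup (Fin 7)) (hf : Function.Surjective f) (hk : ¬ 9 ∣ Nat.card f.ker)
    {A P : Subgroup G} (hA : A ≤ center G) (hAc : Nat.card A = 3) (hAP : A ≤ P) (hPc : Nat.card P = 27)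
    (hG : (Nat.card G).factorization 3 = 3) (hcomm : ∀ x ∈ P, ∀ y ∈ P, x * y = y * x)
    (hexp : ∀ x ∈ P, x ^ 3 = 1) (hP₀ : ∀ x ∈ P, f x ∈ P₀)

include hf hk hA hAc hAP hPc

theorem mem_A {x : G} (hx : x ∈ P) (h1 : f x = 1) : x ∈ A := by
  rw [← inf_ker f hf hk hA hAc hAP hPc]
  exact ⟨hx, h1⟩

include hP₀ in
theorem map_eq : P.map f = P₀ := by
  apply eq_of_le_of_card_ge
  · rintro _ ⟨x, hx, rfl⟩
    exact hP₀ x hx
  · rw [card_P₀, card_map f hf hk hA hAc hAP hPc]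

include hG hcomm hexp hP₀ in
/-- the element inducing `a ↦ b ↦ a⁻¹` -/
theorem exists_abg : ∃ a b g : G, a ∈ P ∧ b ∈ P ∧ (∀ x ∈ P, g * x * g⁻¹ ∈ P) ∧ g * a * g⁻¹ = b ∧ g * b * g⁻¹ = a⁻¹ ∧
    f a = qa ∧ f b = qb := by
  obtain ⟨a₀, ha₀, hfa⟩ : ∃ a₀ ∈ P, f a₀ = qa := by
    have h1 := qa_mem
    rw [← map_eq f hf hk hA hAc hAP hPc hP₀] at h1
    obtain ⟨a₀, h2, h3⟩ := h1
    exact ⟨a₀, h2, h3⟩
  obtain ⟨g₀, hg₀⟩ := hf qh
  have hPM : P ≤ P₀.comap f := fun x hx => hP₀ x hx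
  have hfM : (Nat.card (P₀.comap f)).factorization 3 = 3 := by
    apply le_antisymm
    · refine le_trans ?_ hG.le
      have h0 : Nat.card (P₀.comap f) ∣ Nat.card G := card_subgroup_dvd_card _
      exact (Nat.factorization_le_iff_dvd (Nat.card_pos (α := P₀.comap f)).ne' (Nat.card_pos (α := G)).ne').2 h0 3
    · rw [← Nat.prime_three.pow_dvd_iff_le_factorization (n := Nat.card (P₀.comap f)) Nat.card_pos.ne']
      have h1 : (3 ^ 3 : ℕ) = Nat.card P := by rw [hPc]; norm_num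
      rw [h1]
      exact Subgroup.card_dvd_of_le hPM
  obtain ⟨m, hm, hmg⟩ := frattini (p := 3) (P₀.comap f) P hPM (by rw [hfM, hPc]; norm_num) g₀ (fun x hx => by
    rw [mem_comap, map_mul, map_mul, map_inv, hg₀]
    exact qh_P₀ _ hx)
  set g₁ := m * g₀ with hg₁
  have hm' : f m ∈ P₀ := hm
  -- the action on `P`
  have h1 : ∀ n : ℕ, ∀ x ∈ P, g₁ ^ n * x * (g₁ ^ n)⁻¹ ∈ P ∧
      f (g₁ ^ n * x * (g₁ ^ n)⁻¹) = qh ^ n * f x * (qh ^ n)⁻¹ := by
    intro n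
    induction n with
    | zero =>
      intro x hx
      simp only [pow_zero, one_mul, inv_one, mul_one]
      exact ⟨hx, trivial⟩
    | succ n ih =>
      intro x hx
      obtain ⟨i1, i2⟩ := ih x hx
      have e1 : g₁ ^ (n + 1) * x * (g₁ ^ (n + 1))⁻¹ = g₁ * (g₁ ^ n * x * (g₁ ^ n)⁻¹) * g₁⁻¹ := by
        rw [pow_succ']; group
      have e2 : qh ^ (n + 1) * f x * (qh ^ (n + 1))⁻¹ = qh * (qh ^ n * f x * (qh ^ n)⁻¹) * qh⁻¹ := by
        rw [pow_succ']; group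
      rw [e1, e2]
      refine ⟨hmg _ i1, ?_⟩
      rw [map_mul, map_mul, map_inv, i2, hg₁, map_mul, hg₀]
      have i3 : qh * (qh ^ n * f x * (qh ^ n)⁻¹) * qh⁻¹ ∈ P₀ := by
        rw [← i2]
        exact qh_P₀ _ (hP₀ _ i1)
      have i4 := comm_P₀ _ hm' _ i3
      calc f m * qh * (qh ^ n * f x * (qh ^ n)⁻¹) * (f m * qh)⁻¹
          = f m * (qh * (qh ^ n * f x * (qh ^ n)⁻¹) * qh⁻¹) * (f m)⁻¹ := by group
        _ = qh * (qh ^ n * f x * (qh ^ n)⁻¹) * qh⁻¹ := by rw [i4, mul_inv_cancel_right]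
  -- `g₁ ^ 12` centralizes `P`
  have h12 : ∀ x ∈ P, g₁ ^ 12 * x * (g₁ ^ 12)⁻¹ = x := by
    have h4 : ∀ x ∈ P, ∃ c ∈ A, g₁ ^ 4 * x * (g₁ ^ 4)⁻¹ = x * c := by
      intro x hx
      obtain ⟨i1, i2⟩ := h1 4 x hx
      rw [qh_four, inv_one, one_mul, mul_one] at i2
      refine ⟨x⁻¹ * (g₁ ^ 4 * x * (g₁ ^ 4)⁻¹), mem_A f hf hk hA hAc hAP hPc (P.mul_mem (P.inv_mem hx) i1) ?_,
        by rw [mul_inv_cancel_left]⟩
      rw [map_mul, i2, map_inv, inv_mul_cancel]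
    intro x hx
    obtain ⟨c, hc, hxc⟩ := h4 x hx
    have hcc : ∀ y : G, y * c = c * y := fun y => mem_center_iff.1 (hA hc) y
    have e1 : g₁ ^ 12 * x * (g₁ ^ 12)⁻¹ =
        g₁ ^ 4 * (g₁ ^ 4 * (g₁ ^ 4 * x * (g₁ ^ 4)⁻¹) * (g₁ ^ 4)⁻¹) * (g₁ ^ 4)⁻¹ := by
      group
    have e2 := conj_mul_central hcc (g₁ ^ 4)
    rw [e1, hxc, e2, hxc, e2, e2, hxc]
    have h3 : c * c * c = 1 := by
      have := hexp c (hAP hc)
      rw [← this, pow_succ, pow_two]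
    rw [mul_assoc, mul_assoc, ← mul_assoc c, h3, mul_one]
  have h36 : ∀ x ∈ P, g₁ ^ 36 * x * (g₁ ^ 36)⁻¹ = x := by
    intro x hx
    have e1 : g₁ ^ 36 * x * (g₁ ^ 36)⁻¹ =
        g₁ ^ 12 * (g₁ ^ 12 * (g₁ ^ 12 * x * (g₁ ^ 12)⁻¹) * (g₁ ^ 12)⁻¹) * (g₁ ^ 12)⁻¹ := by
      group
    rw [e1, h12 x hx, h12 x hx, h12 x hx]
  -- the element `a`
  set u := g₁ ^ 18 * a₀ * (g₁ ^ 18)⁻¹ with hu
  obtain ⟨hu1, hu2⟩ := h1 18 a₀ ha₀
  have hq18 : qh ^ 18 = qh ^ 2 := by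
    have : qh ^ 18 = (qh ^ 4) ^ 4 * qh ^ 2 := by rw [← pow_mul, ← pow_add]
    rw [this, qh_four, one_pow, one_mul]
  have hq9 : qh ^ 9 = qh := by
    have : qh ^ 9 = (qh ^ 4) ^ 2 * qh := by rw [← pow_mul, ← pow_succ]
    rw [this, qh_four, one_pow, one_mul]
  have hfu : f u = qa⁻¹ := by
    rw [hu2, hq18, hfa]
    have : qh ^ 2 * qa * (qh ^ 2)⁻¹ = qh * (qh * qa * qh⁻¹) * qh⁻¹ := by rw [pow_two]; group
    rw [this, qh_a, qh_b]
  have haP : u * a₀⁻¹ ∈ P := P.mul_mem hu1 (P.inv_mem ha₀)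
  have hfa' : f (u * a₀⁻¹) = qa := by
    rw [map_mul, map_inv, hfu, hfa, ← mul_inv_rev, inv_eq_iff_mul_eq_one]
    have := qa_cube
    rw [pow_succ, pow_two] at this
    exact this
  have hginv : g₁ ^ 18 * (u * a₀⁻¹) * (g₁ ^ 18)⁻¹ = (u * a₀⁻¹)⁻¹ := by
    have e1 : g₁ ^ 18 * (u * a₀⁻¹) * (g₁ ^ 18)⁻¹ =
        (g₁ ^ 36 * a₀ * (g₁ ^ 36)⁻¹) * (g₁ ^ 18 * a₀ * (g₁ ^ 18)⁻¹)⁻¹ := by
      rw [hu]
      group
    rw [e1, h36 a₀ ha₀, ← hu]
    group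
  obtain ⟨hb1, hb2⟩ := h1 9 _ haP
  refine ⟨u * a₀⁻¹, g₁ ^ 9 * (u * a₀⁻¹) * (g₁ ^ 9)⁻¹, g₁ ^ 9, haP, hb1, fun x hx => (h1 9 x hx).1, rfl, ?_, hfa', ?_⟩
  · have e1 : g₁ ^ 9 * (g₁ ^ 9 * (u * a₀⁻¹) * (g₁ ^ 9)⁻¹) * (g₁ ^ 9)⁻¹ = g₁ ^ 18 * (u * a₀⁻¹) * (g₁ ^ 18)⁻¹ := by
      group
    rw [e1, hginv]
  · rw [hb2, hfa', hq9, qh_a]

include hexp in
/-- the `2`-element over `(3 4)(5 6)` commuting with `a` -/
theorem exists_t {a : G} (ha : a ∈ P) (hfa : f a = qa) : ∃ t : G, t * a = a * t ∧ (∃ k, t ^ 2 ^ k = 1) ∧ f t = qv := by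
  obtain ⟨t₀, ht₀⟩ := hf qv
  have haA : a ∉ A := by
    intro h
    have := le_ker f hf hA h
    rw [MonoidHom.mem_ker, hfa] at this
    exact qa_ne this
  have ha3 := hexp a ha
  obtain ⟨X, hX, hX9⟩ := exists_dir hA hAc ha3 haA
  set M := (zpowers qa).comap f with hM
  have hXM : X ≤ M := by
    intro x hx
    obtain ⟨k, c, hc, rfl⟩ := (hX x).1 hx
    have h1 : f c = 1 := le_ker f hf hA hc
    rw [hM, mem_comap, map_mul, h1, mul_one, map_pw, hfa]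
    exact pw_mem (mem_zpowers qa) k
  have hfM : (Nat.card M).factorization 3 = 2 := fact_comap f hf hk hA hAc
  have hvM : ∀ y ∈ zpowers qa, qv * y * qv⁻¹ = y := by
    intro y hy
    obtain ⟨n, rfl⟩ := mem_zpowers_iff.1 hy
    have hc : Commute qv qa := qva
    rw [(hc.zpow_right n).eq, mul_inv_cancel_right]
  obtain ⟨m, hm, hmt⟩ := frattini (p := 3) M X hXM (by rw [hfM, hX9]; norm_num) t₀ (fun x hx => by
    rw [hM, mem_comap, map_mul, map_mul, map_inv, ht₀, hvM _ hx]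
    exact hx)
  set t₁ := m * t₀ with ht₁
  have hm' : f m ∈ zpowers qa := hm
  have hft₁ : f t₁ = f m * qv := by rw [ht₁, map_mul, ht₀]
  have haX : a ∈ X := (hX a).2 ⟨1, 1, A.one_mem, by rw [pw_one, mul_one]⟩
  have hcm : Commute (f m) qa := by
    obtain ⟨n, hn⟩ := mem_zpowers_iff.1 hm'
    rw [← hn]
    exact (Commute.refl qa).zpow_left n
  have hcv : Commute (f m) qv := by
    obtain ⟨n, hn⟩ := mem_zpowers_iff.1 hm'
    rw [← hn]
    exact (show Commute qv qa from qva).symm.zpow_left n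
  -- `t₁ a t₁⁻¹ = a c`
  obtain ⟨k, c, hc, hkc⟩ := (hX _).1 (hmt a haX)
  have hk1 : k = 1 := by
    have h1 : f (t₁ * a * t₁⁻¹) = qa := by
      rw [map_mul, map_mul, map_inv, hft₁, hfa]
      have : Commute (f m * qv) qa := hcm.mul_left qva
      rw [this.eq, mul_inv_cancel_right]
    have h2 : f (pw a k * c) = pw qa k := by
      rw [map_mul, show f c = 1 from le_ker f hf hA hc, mul_one, map_pw, hfa]
    rw [hkc, h2] at h1
    exact pw_inj qa_cube qa_ne (h1.trans pw_one.symm)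
  rw [hk1, pw_one] at hkc
  have hcc : ∀ y : G, y * c = c * y := fun y => mem_center_iff.1 (hA hc) y
  have hc3 : c * c * c = 1 := by
    have := hexp c (hAP hc)
    rw [← this, pow_succ, pow_two]
  have h3 : t₁ ^ 3 * a * (t₁ ^ 3)⁻¹ = a := by
    have e1 : t₁ ^ 3 * a * (t₁ ^ 3)⁻¹ = t₁ * (t₁ * (t₁ * a * t₁⁻¹) * t₁⁻¹) * t₁⁻¹ := by
      rw [pow_succ, pow_two]; group
    have e2 := conj_mul_central hcc t₁
    rw [e1, hkc, e2, hkc, e2, e2, hkc, mul_assoc, mul_assoc, ← mul_assoc c, hc3, mul_one]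
  have hf3 : f (t₁ ^ 3) = qv := by
    rw [map_pow, hft₁, hcv.mul_pow]
    have h4 : f m ^ 3 = 1 := by
      obtain ⟨n, hn⟩ := mem_zpowers_iff.1 hm'
      rw [← hn, ← zpow_natCast, ← zpow_mul, mul_comm, zpow_mul]
      have : qa ^ ((3 : ℕ) : ℤ) = 1 := by rw [zpow_natCast, qa_cube]
      rw [this, one_zpow]
    rw [h4, one_mul, pow_succ, qv_sq, one_mul]
  -- make it a `2`-element
  obtain ⟨n, m', hodd, hn⟩ := Nat.exists_eq_two_pow_mul_odd (orderOf_pos (t₁ ^ 3)).ne'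
  have hcomm3 : Commute (t₁ ^ 3) a := by
    rw [mul_inv_eq_iff_eq_mul] at h3
    exact h3
  refine ⟨(t₁ ^ 3) ^ m', (hcomm3.pow_left m').eq, ⟨n, ?_⟩, ?_⟩
  · rw [← pow_mul, mul_comm, ← hn, pow_orderOf_eq_one]
  · rw [map_pow, hf3]
    obtain ⟨l, rfl⟩ := hodd
    rw [pow_succ, pow_mul, qv_sq, one_pow, one_mul]

end

end Cfsg.Agent.H117.PSq
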